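import Cfsg.Agent.Lib.Helper86.ModelQuot
import Cfsg.Agent.Lib.Helper86.ModelConverse

set_option autoImplicit false

/-! A model of a constrained system is a quotient of every finite group realizing the system on a Sylow subgroup
in which the normal centric subgroup is normal. -/

namespace Cfsg.Agent.Lib.Helper86.Model

open Cfsg Cfsg.FusionSystem Cfsg.Agent.Lib.Helper87

universe u v w

variable {Ω : Type u} [Group Ω] {S : Subgroup Ω} {G : Type v} [Group G]
variable {p : ℕ} {F : FusionSystem S} {Q : Subgroup Ω} {ι : S →* G}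

namespace Setup

/-- The action of `G` on `Q`. -/
noncomputable def rhoR0 (h : Setup p F Q) (hi : Function.Injective ι)
    (hn : (jQ ι h.hQS).range.Normal) : G →* MulAut Q :=
  haveI := hn
  (MulAut.congr (MonoidHom.ofInjective (jQ_injective hi h.hQS)).symm).toMonoidHom.comp
    (MulAut.conjNormal (H := (jQ ι h.hQS).range))

theorem rhoR0_apply (h : Setup p F Q) (hi : Function.Injective ι)
    (hn : (jQ ι h.hQS).range.Normal) (g : G) (x : Q) :
    iE ι ((h.rhoR0 hi hn g x : Q) : Ω) = g * iE ι x * g⁻¹ := by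
  have := hn
  set e := MonoidHom.ofInjective (jQ_injective hi h.hQS) with he
  have h1 : h.rhoR0 hi hn g x = e.symm (MulAut.conjNormal g (e x)) := rfl
  have h2 : e (h.rhoR0 hi hn g x) = MulAut.conjNormal g (e x) := by rw [h1, e.apply_symm_apply]
  have h3 := congrArg Subtype.val h2
  rw [MulAut.conjNormal_apply] at h3
  rw [← jQ_apply ι h.hQS, ← jQ_apply ι h.hQS]
  exact h3

theorem rhoR0_mem (h : Setup p F Q) (hr : F.IsRealizedBy ι)
    (hn : (jQ ι h.hQS).range.Normal) (g : G) : h.rhoR0 hr.1 hn g ∈ F.autGroup Q := by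
  rw [Helper87.mem_autGroup_iff' F h.hQS]
  refine (hr.2 Q h.hQS _ (fun x => h.hQS (Subtype.prop _))).2 ⟨g, fun x => ?_⟩
  have := h.rhoR0_apply hr.1 hn g x
  rw [iE_mem ι (h.hQS (Subtype.prop _)), iE_mem ι (h.hQS x.2)] at this
  exact this

/-- The action of `G` on `Q`, with values in `Aut_F(Q)`. -/
noncomputable def rhoR (h : Setup p F Q) (hr : F.IsRealizedBy ι)
    (hn : (jQ ι h.hQS).range.Normal) : G →* F.autGroup Q :=
  (h.rhoR0 hr.1 hn).codRestrict _ (h.rhoR0_mem hr hn)

theorem rhoR_apply (h : Setup p F Q) (hr : F.IsRealizedBy ι)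
    (hn : (jQ ι h.hQS).range.Normal) (g : G) (x : Q) :
    iE ι ((((h.rhoR hr hn g : F.autGroup Q) : MulAut Q) x : Q) : Ω) = g * iE ι x * g⁻¹ :=
  h.rhoR0_apply hr.1 hn g x

theorem rhoR_eq (h : Setup p F Q) (hr : F.IsRealizedBy ι)
    (hn : (jQ ι h.hQS).range.Normal) {g : G} {γ : F.autGroup Q}
    (e : ∀ x : Q, iE ι (((γ : MulAut Q) x : Q) : Ω) = g * iE ι x * g⁻¹) : h.rhoR hr hn g = γ := by
  apply Subtype.ext
  ext x
  apply iE_inj hr.1 (h.hQS (Subtype.prop _)) (h.hQS (Subtype.prop _))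
  rw [h.rhoR_apply hr hn, e]

theorem preModel_of_realized [Finite S] [Fact p.Prime] (h : Setup p F Q) (hr : F.IsRealizedBy ι)
    (hn : (jQ ι h.hQS).range.Normal) : IsPreModel h.admSys ι (h.rhoR hr hn) := by
  refine ⟨hr.1, ?_, ?_, ?_, ?_⟩
  · intro γ
    obtain ⟨g, hg⟩ := realized_of_mor hr ((Helper87.mem_autGroup_iff F h.hQS _).1 γ.2)
    refine ⟨g, h.rhoR_eq hr hn (fun x => ?_)⟩
    rw [← hg x x.2, autFun_coe]
  · intro s
    apply h.rhoR_eq hr hn
    intro x
    rw [cHom_apply, iE_conj ι s.2 (h.hQS x.2), iE_coe]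
  · intro g hg z hz
    have hzQ := h.ker_mem_Q hz
    have h1 := h.rhoR_apply hr hn g ⟨z, hzQ⟩
    rw [hg] at h1
    have h2 : iE ι (z : Ω) = g * iE ι (z : Ω) * g⁻¹ := h1
    rw [iE_coe] at h2
    calc g * ι z = (g * ι z * g⁻¹) * g := by group
      _ = ι z * g := by rw [← h2]
  · rintro R φ γ ⟨f, hf, h1, h2⟩
    obtain ⟨g, hg⟩ := realized_of_mor hr hf
    refine ⟨g, h.rhoR_eq hr hn (fun x => ?_), fun s hs => ?_⟩
    · rw [← h2, hg x (mem_right x.2)]
    · rw [← iE_coe ι s, ← hg s (mem_left hs), h1 s hs, iE_coe]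

/-- A model is a quotient of every finite realizing group in which `Q` is normal. -/
theorem exists_surjective_of_realized [Finite S] [Fact p.Prime] [Finite G] (h : Setup p F Q)
    (hr : F.IsRealizedBy ι) (hn : (jQ ι h.hQS).range.Normal) (hidx : ¬ p ∣ ι.range.index)
    {M : Type w} [Group M] {ιM : S →* M} (hM : F.IsModel p M ιM) :
    ∃ π : G →* M, Function.Surjective π := by
  have : Finite Q := finite_of_le h.hQS
  obtain ⟨K, hKn, ρ', habs⟩ := (h.preModel_of_realized hr hn).exists_quot p h.hS hidx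
  obtain ⟨f, -⟩ := habs.unique (h.abs_of_isModel hM) p h.hS h.not_dvd_index
  exact ⟨f.toMonoidHom.comp (QuotientGroup.mk' K),
    f.surjective.comp (QuotientGroup.mk'_surjective K)⟩

end Setup

end Cfsg.Agent.Lib.Helper86.Model
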