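import Mathlib

set_option autoImplicit false

namespace Cfsg.Agent.Lib.Helper86.Oliver

variable {Ω : Type*} [Group Ω]

theorem card_eq_relIndex_mul {H K : Subgroup Ω} (h : H ≤ K) :
    Nat.card K = H.relIndex K * Nat.card H := by
  have h1 := Subgroup.card_mul_index (H.subgroupOf K)
  rw [Nat.card_congr (Subgroup.subgroupOfEquivOfLe h).toEquiv] at h1
  rw [← h1, mul_comm]
  rfl

/-- A finite nonabelian `p`-group `S` with an abelian subgroup `A` of index `p`. -/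
structure Setup (p : ℕ) (S A : Subgroup Ω) : Prop where
  hS : IsPGroup p S
  le : A ≤ S
  comm : ∀ a ∈ A, ∀ b ∈ A, a * b = b * a
  idx : (A.subgroupOf S).index = p
  na : ¬ IsMulCommutative ↥S

/-- The centre of `S`, as a subgroup of the ambient group. -/
abbrev ZS (S : Subgroup Ω) : Subgroup Ω := S ⊓ Subgroup.centralizer (S : Set Ω)

theorem mem_ZS {S : Subgroup Ω} {z : Ω} : z ∈ ZS S ↔ z ∈ S ∧ ∀ s ∈ S, s * z = z * s := by
  rw [ZS, Subgroup.mem_inf, Subgroup.mem_centralizer_iff]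
  rfl

variable {p : ℕ} [Fact p.Prime] {S A : Subgroup Ω} [Finite S]

theorem Setup.normal' (h : Setup p S A) : (A.subgroupOf S).Normal := by
  apply Subgroup.normal_of_index_eq_minFac_card
  rw [h.idx]
  obtain ⟨n, hn⟩ := h.hS.exists_card_eq
  have hn0 : n ≠ 0 := by
    rintro rfl
    have h1 := Subgroup.index_dvd_card (A.subgroupOf S)
    rw [hn, h.idx, pow_zero] at h1
    exact (Fact.out : p.Prime).one_lt.ne' (Nat.dvd_one.1 h1)
  rw [hn, (Fact.out : p.Prime).pow_minFac hn0]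

theorem Setup.conj_mem (h : Setup p S A) {s a : Ω} (hs : s ∈ S) (ha : a ∈ A) :
    s * a * s⁻¹ ∈ A := by
  have := h.normal'
  have h1 := this.conj_mem ⟨a, h.le ha⟩ (Subgroup.mem_subgroupOf.2 ha) ⟨s, hs⟩
  exact Subgroup.mem_subgroupOf.1 h1

theorem Setup.conj_mem' (h : Setup p S A) {s a : Ω} (hs : s ∈ S) (ha : a ∈ A) :
    s⁻¹ * a * s ∈ A := by
  have := h.conj_mem (S.inv_mem hs) ha
  rwa [inv_inv] at this

theorem Setup.relIndex_eq (h : Setup p S A) {Q : Subgroup Ω} (hQ : Q ≤ S) (hQA : ¬ Q ≤ A) :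
    A.relIndex Q = p := by
  have := h.normal'
  have h1 : (A.subgroupOf S).relIndex (Q.subgroupOf S) ∣ (A.subgroupOf S).index :=
    Subgroup.relIndex_dvd_index_of_normal _ _
  rw [Subgroup.relIndex_subgroupOf hQ, h.idx] at h1
  rcases (Nat.dvd_prime (Fact.out : p.Prime)).1 h1 with h2 | h2
  · exact absurd (Subgroup.relIndex_eq_one.1 h2) hQA
  · exact h2

theorem Setup.card_eq (h : Setup p S A) {Q : Subgroup Ω} (hQ : Q ≤ S) (hQA : ¬ Q ≤ A) :
    Nat.card Q = p * Nat.card (Q ⊓ A : Subgroup Ω) := by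
  rw [card_eq_relIndex_mul (inf_le_left : Q ⊓ A ≤ Q), inf_comm, Subgroup.inf_relIndex_right,
    h.relIndex_eq hQ hQA]

theorem Setup.exists_eq (h : Setup p S A) {x : Ω} (hx : x ∈ S) (hxA : x ∉ A) {s : Ω}
    (hs : s ∈ S) : ∃ a ∈ A, ∃ k : ℤ, s = a * x ^ k := by
  have hn := h.normal'
  set x' : S := ⟨x, hx⟩
  have hle : A.subgroupOf S ≤ A.subgroupOf S ⊔ Subgroup.zpowers x' := le_sup_left
  have h1 := Subgroup.relIndex_mul_index hle
  rw [h.idx] at h1
  have h2 : (A.subgroupOf S).relIndex (A.subgroupOf S ⊔ Subgroup.zpowers x') ≠ 1 := by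
    intro h3
    have h4 := Subgroup.relIndex_eq_one.1 h3
    exact hxA (Subgroup.mem_subgroupOf.1 (h4 ((le_sup_right : Subgroup.zpowers x' ≤ _)
      (Subgroup.mem_zpowers x'))))
  have h3 : (A.subgroupOf S).relIndex (A.subgroupOf S ⊔ Subgroup.zpowers x') = p := by
    rcases (Nat.dvd_prime (Fact.out : p.Prime)).1 (Dvd.intro _ h1) with h4 | h4
    · exact absurd h4 h2
    · exact h4
  rw [h3] at h1
  have h4 : (A.subgroupOf S ⊔ Subgroup.zpowers x').index = 1 := by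
    have hp := (Fact.out : p.Prime).pos
    exact Nat.eq_of_mul_eq_mul_left hp (by rw [h1, mul_one])
  rw [Subgroup.index_eq_one] at h4
  have h5 : (⟨s, hs⟩ : S) ∈ A.subgroupOf S ⊔ Subgroup.zpowers x' := by rw [h4]; trivial
  rw [Subgroup.mem_sup_of_normal_left] at h5
  obtain ⟨a, ha, y, hy, hay⟩ := h5
  obtain ⟨k, rfl⟩ := Subgroup.mem_zpowers_iff.1 hy
  refine ⟨a, Subgroup.mem_subgroupOf.1 ha, k, ?_⟩
  have := congrArg Subtype.val hay
  simpa using this.symm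

theorem Setup.center_le (h : Setup p S A) : ZS S ≤ A := by
  intro z hz
  by_contra hzA
  obtain ⟨hzS, hzc⟩ := mem_ZS.1 hz
  apply h.na
  refine ⟨⟨fun s t => ?_⟩⟩
  obtain ⟨a, ha, k, hs⟩ := h.exists_eq hzS hzA s.2
  obtain ⟨b, hb, l, ht⟩ := h.exists_eq hzS hzA t.2
  apply Subtype.ext
  show (s : Ω) * t = t * s
  have hzk : ∀ (m : ℤ) (u : Ω), u ∈ S → u * z ^ m = z ^ m * u := by
    intro m u hu
    exact ((Commute.zpow_right (hzc u hu : Commute u z)) m).eq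
  rw [hs, ht]
  calc a * z ^ k * (b * z ^ l) = a * (z ^ k * b) * z ^ l := by group
    _ = a * (b * z ^ k) * z ^ l := by rw [hzk k b (h.le hb)]
    _ = (a * b) * (z ^ k * z ^ l) := by group
    _ = (b * a) * (z ^ l * z ^ k) := by
        rw [h.comm a ha b hb, ← zpow_add, ← zpow_add, add_comm]
    _ = b * (a * z ^ l) * z ^ k := by group
    _ = b * (z ^ l * a) * z ^ k := by rw [hzk l a (h.le ha)]
    _ = b * z ^ l * (a * z ^ k) := by group

theorem Setup.mem_center (h : Setup p S A) {x : Ω} (hx : x ∈ S) (hxA : x ∉ A) {a : Ω}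
    (ha : a ∈ A) (hax : a * x = x * a) : a ∈ ZS S := by
  refine mem_ZS.2 ⟨h.le ha, fun s hs => ?_⟩
  obtain ⟨b, hb, k, rfl⟩ := h.exists_eq hx hxA hs
  have h1 : a * x ^ k = x ^ k * a := ((Commute.zpow_right (hax : Commute a x)) k).eq
  calc b * x ^ k * a = b * (x ^ k * a) := by group
    _ = b * (a * x ^ k) := by rw [h1]
    _ = (b * a) * x ^ k := by group
    _ = (a * b) * x ^ k := by rw [h.comm a ha b hb]
    _ = a * (b * x ^ k) := by group

/-- The commutator map `a ↦ [a, x]` as an endomorphism of `A`. -/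
def Setup.psi (h : Setup p S A) (x : Ω) (hx : x ∈ S) : A →* A where
  toFun a := ⟨a * x * (a : Ω)⁻¹ * x⁻¹, by
    have h1 := h.conj_mem hx (A.inv_mem a.2)
    have h2 : (a : Ω) * x * (a : Ω)⁻¹ * x⁻¹ = a * (x * (a : Ω)⁻¹ * x⁻¹) := by group
    rw [h2]
    exact A.mul_mem a.2 h1⟩
  map_one' := by
    apply Subtype.ext
    simp
  map_mul' a b := by
    apply Subtype.ext
    have h1 := h.conj_mem hx (A.inv_mem a.2)
    show (a : Ω) * b * x * ((a : Ω) * b)⁻¹ * x⁻¹ =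
      ((a : Ω) * x * (a : Ω)⁻¹ * x⁻¹) * ((b : Ω) * x * (b : Ω)⁻¹ * x⁻¹)
    calc (a : Ω) * b * x * ((a : Ω) * b)⁻¹ * x⁻¹
        = a * (b * (x * (b : Ω)⁻¹ * x⁻¹)) * (x * (a : Ω)⁻¹ * x⁻¹) := by group
      _ = a * ((x * (a : Ω)⁻¹ * x⁻¹) * (b * (x * (b : Ω)⁻¹ * x⁻¹))) := by
          rw [mul_assoc (a : Ω), h.comm _ (A.mul_mem b.2 (h.conj_mem hx (A.inv_mem b.2))) _ h1]
      _ = _ := by group

@[simp] theorem Setup.psi_coe (h : Setup p S A) (x : Ω) (hx : x ∈ S) (a : A) :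
    ((h.psi x hx a : A) : Ω) = a * x * (a : Ω)⁻¹ * x⁻¹ := rfl

end Cfsg.Agent.Lib.Helper86.Oliver
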