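import Cfsg.Agent.Lib.Helper86.OliverA
import Cfsg.Agent.Lib.Helper86.OliverB

set_option autoImplicit false

namespace Cfsg.Agent.Lib.Helper86.Oliver

open Cfsg Cfsg.FusionSystem Cfsg.Agent.Lib

section General

variable {G : Type*} [Group G]

/-- The elements `g` with `g⁻¹ c(g) ∈ N`, for a normal subgroup `N`. -/
def commSub (c : MulAut G) (N : Subgroup G) [hN : N.Normal] : Subgroup G where
  carrier := {g | g⁻¹ * c g ∈ N}
  mul_mem' := by
    intro a b ha hb
    have h1 : (a * b)⁻¹ * c (a * b) = (b⁻¹ * (a⁻¹ * c a) * b⁻¹⁻¹) * (b⁻¹ * c b) := by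
      rw [map_mul]; group
    show (a * b)⁻¹ * c (a * b) ∈ N
    rw [h1]
    exact N.mul_mem (hN.conj_mem _ ha _) hb
  one_mem' := by
    show (1 : G)⁻¹ * c 1 ∈ N
    simp
  inv_mem' := by
    intro a ha
    have h1 : a⁻¹⁻¹ * c a⁻¹ = a * (a⁻¹ * c a)⁻¹ * a⁻¹ := by
      rw [map_inv]; group
    show a⁻¹⁻¹ * c a⁻¹ ∈ N
    rw [h1]
    exact hN.conj_mem _ (N.inv_mem ha) _

theorem mem_commSub {c : MulAut G} {N : Subgroup G} [N.Normal] {g : G} :
    g ∈ commSub c N ↔ g⁻¹ * c g ∈ N := Iff.rfl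

theorem relIndex_eq_prime {p : ℕ} [Fact p.Prime] {H K L : Subgroup G}
    (hn : (H.subgroupOf L).Normal) (hidx : H.relIndex L = p) (hK : K ≤ L) (hKH : ¬ K ≤ H) :
    H.relIndex K = p := by
  have h1 : (H.subgroupOf L).relIndex (K.subgroupOf L) ∣ (H.subgroupOf L).index :=
    Subgroup.relIndex_dvd_index_of_normal _ _
  rw [Subgroup.relIndex_subgroupOf hK] at h1
  have h0 : (H.subgroupOf L).index = p := hidx
  rw [h0] at h1
  rcases (Nat.dvd_prime (Fact.out : p.Prime)).1 h1 with h2 | h2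
  · exact absurd (Subgroup.relIndex_eq_one.1 h2) hKH
  · exact h2

end General

variable {Ω : Type*} [Group Ω] {S A : Subgroup Ω} [Finite S] {p : ℕ} [Fact p.Prime]

theorem lemmaK (h : Setup p S A) (F : FusionSystem S) (hF : F.IsSaturated p) {P : Subgroup Ω}
    (hP : F.IsEssential p P) {x : Ω} (hxP : x ∈ P) (hxA : x ∉ A)
    {α : MulAut P} (hα : α ∈ F.autGroup P)
    (hα' : ∀ (g : Ω) (_ : g ∈ S) (hgN : g ∈ Subgroup.normalizer (P : Set Ω)),
      α * conjAut P g hgN * α⁻¹ ∈ autInducedBy S P → g ∈ P)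
    {a : Ω} (ha : a ∈ A) (haN : a ∈ Subgroup.normalizer (P : Set Ω))
    (hcomm : ∀ g : P, ((α (g⁻¹ * conjAut P a haN g) : P) : Ω) ∈ A) : a ∈ P := by
  have hPS : P ≤ S := hP.1.1
  have : Finite P := finite_of_le hPS
  have hPp : IsPGroup p P := h.hS.to_le hPS
  set P0 : Subgroup P := A.subgroupOf P with hP0
  set R' : Subgroup P := P0 ⊓ P0.map α.toMonoidHom with hR'
  set St := stab3 R' P0 inf_le_left with hSt
  set L : Subgroup (MulAut P) := (St ⊓ F.autGroup P) ⊔ Inn P with hL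
  have hsyl := (Helper87.fullyAutomized_iff F p hPS).1
    (sat_fullyAutomized_of_fullyNormalized h.hS F hF hP.2.1)
  have hfix : ∀ (b : Ω) (hb : b ∈ A) (hbN : b ∈ Subgroup.normalizer (P : Set Ω)) (g : P),
      g ∈ P0 → conjAut P b hbN g = g := by
    intro b hb hbN g hg
    apply Subtype.ext
    rw [conjAut_apply, h.comm b hb g hg, mul_inv_cancel_right]
  have hcA : ∀ (b : Ω) (hb : b ∈ A) (hbN : b ∈ Subgroup.normalizer (P : Set Ω)) (g : P),
      g⁻¹ * conjAut P b hbN g ∈ P0 := by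
    intro b hb hbN g
    show ((g⁻¹ * conjAut P b hbN g : P) : Ω) ∈ A
    have h1 : ((g⁻¹ * conjAut P b hbN g : P) : Ω) = ((g : Ω)⁻¹ * b * g) * b⁻¹ := by
      simp only [Subgroup.coe_mul, Subgroup.coe_inv, conjAut_apply]; group
    rw [h1]
    exact A.mul_mem (h.conj_mem' (hPS g.2) hb) (A.inv_mem hb)
  have hbSt : ∀ (b : Ω) (hb : b ∈ A) (hbN : b ∈ Subgroup.normalizer (P : Set Ω)),
      conjAut P b hbN ∈ St := by
    intro b hb hbN
    refine ⟨fun g hg => hfix b hb hbN g hg.1, fun g hg => ?_, fun g => hcA b hb hbN g⟩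
    rw [hfix b hb hbN g hg, inv_mul_cancel]
    exact Subgroup.one_mem _
  have hTL : autInducedBy S P ≤ L := by
    intro t ht
    obtain ⟨g, hgN, hgS, rfl⟩ := mem_autInducedBy_iff'.1 ht
    obtain ⟨b, hb, k, rfl⟩ := h.exists_eq (hPS hxP) hxA hgS
    have hxk : x ^ k ∈ P := P.zpow_mem hxP k
    have hxkN : x ^ k ∈ Subgroup.normalizer (P : Set Ω) := Subgroup.le_normalizer hxk
    have hbN : b ∈ Subgroup.normalizer (P : Set Ω) := by
      have := Subgroup.mul_mem _ hgN (Subgroup.inv_mem _ hxkN)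
      rwa [mul_inv_cancel_right] at this
    have h1 : conjAut P (b * x ^ k) hgN = conjAut P b hbN * conjAut P (x ^ k) hxkN := by
      ext y
      simp only [MulAut.mul_apply, conjAut_apply]
      group
    rw [h1]
    refine L.mul_mem ((le_sup_left : _ ≤ L) ⟨hbSt b hb hbN, ?_⟩) ((le_sup_right : _ ≤ L) ?_)
    · exact autInducedBy_le_autGroup F hPS (conjAut_mem_autInducedBy hbN (h.le hb))
    · rw [inn_eq_autInducedBy]
      exact conjAut_mem_autInducedBy hxkN hxk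
  have hLp : IsPGroup p L := by
    refine IsPGroup.to_sup_of_normal_right ((isPGroup_stab3 hPp R' P0 inf_le_left).to_le inf_le_left) ?_
    rw [inn_eq_autInducedBy]
    exact isPGroup_autInducedBy hPp P
  have hLT : L = autInducedBy S P :=
    hsyl.2.2 L (sup_le inf_le_right (inn_le_autGroup F hPS)) hLp hTL
  refine hα' a (h.le ha) haN ?_
  rw [← hLT]
  refine (le_sup_left : _ ≤ L) ⟨?_, ?_⟩
  · have hgen : ∀ g : P, g⁻¹ * (α * conjAut P a haN * α⁻¹) g ∈ R' := by
      intro g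
      have h1 : g⁻¹ * (α * conjAut P a haN * α⁻¹) g =
          α ((α⁻¹ g)⁻¹ * conjAut P a haN (α⁻¹ g)) := by
        rw [map_mul, map_inv, MulAut.apply_inv_self]
        rfl
      rw [h1]
      exact ⟨hcomm _, ⟨_, hcA a ha haN _, rfl⟩⟩
    refine ⟨fun g hg => ?_, fun g _ => hgen g, fun g => (hgen g).1⟩
    obtain ⟨h0, hh0, rfl⟩ := hg.2
    show α (conjAut P a haN (α⁻¹ (α h0))) = α h0
    rw [MulAut.inv_apply_self, hfix a ha haN h0 hh0]
  · exact Subgroup.mul_mem _ (Subgroup.mul_mem _ hα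
      (autInducedBy_le_autGroup F hPS (conjAut_mem_autInducedBy haN (h.le ha))))
      (Subgroup.inv_mem _ hα)

end Cfsg.Agent.Lib.Helper86.Oliver
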