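import Cfsg.Agent.Lib.Helper86.OliverC

set_option autoImplicit false

namespace Cfsg.Agent.Lib.Helper86.Oliver

open Cfsg Cfsg.FusionSystem Cfsg.Agent.Lib

variable {Ω : Type*} [Group Ω] {S A : Subgroup Ω} [Finite S] {p : ℕ} [Fact p.Prime]

theorem Setup.comm_mem (h : Setup p S A) {x : Ω} (hx : x ∈ S) (hxA : x ∉ A) {s t : Ω}
    (hs : s ∈ S) (ht : t ∈ S) : s * t * s⁻¹ * t⁻¹ ∈ A := by
  obtain ⟨a, ha, k, rfl⟩ := h.exists_eq hx hxA hs
  obtain ⟨b, hb, l, rfl⟩ := h.exists_eq hx hxA ht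
  have h1 : a * x ^ k * (b * x ^ l) * (a * x ^ k)⁻¹ * (b * x ^ l)⁻¹ =
      a * (x ^ k * b * (x ^ k)⁻¹) * (x ^ l * a⁻¹ * (x ^ l)⁻¹) * b⁻¹ := by group
  rw [h1]
  exact A.mul_mem (A.mul_mem (A.mul_mem ha (h.conj_mem (S.zpow_mem hx k) hb))
    (h.conj_mem (S.zpow_mem hx l) (A.inv_mem ha))) (A.inv_mem hb)

theorem Setup.exists_eq' (h : Setup p S A) {Q : Subgroup Ω} (hQ : Q ≤ S) {x : Ω} (hx : x ∈ Q)
    (hxA : x ∉ A) {s : Ω} (hs : s ∈ Q) : ∃ a ∈ A ⊓ Q, ∃ k : ℤ, s = a * x ^ k := by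
  obtain ⟨a, ha, k, rfl⟩ := h.exists_eq (hQ hx) hxA (hQ hs)
  refine ⟨a, ⟨ha, ?_⟩, k, rfl⟩
  have := Q.mul_mem hs (Q.inv_mem (Q.zpow_mem hx k))
  rwa [mul_inv_cancel_right] at this

theorem Setup.eq_sup (h : Setup p S A) {Q : Subgroup Ω} (hQ : Q ≤ S) {x : Ω} (hx : x ∈ Q)
    (hxA : x ∉ A) : Q = (A ⊓ Q) ⊔ Subgroup.zpowers x := by
  refine le_antisymm (fun s hs => ?_) (sup_le inf_le_right (by rwa [Subgroup.zpowers_le]))
  obtain ⟨a, ha, k, rfl⟩ := h.exists_eq' hQ hx hxA hs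
  exact Subgroup.mul_mem _ ((le_sup_left : A ⊓ Q ≤ _) ha)
    ((le_sup_right : Subgroup.zpowers x ≤ _) (Subgroup.zpow_mem _ (Subgroup.mem_zpowers x) k))

/-- For `a ∈ A` and `x ∈ P ∖ A`: `a` normalizes `P` iff `[a, x] ∈ P`. -/
theorem Setup.mem_normalizer_iff (h : Setup p S A) {P : Subgroup Ω} (hP : P ≤ S) {x : Ω}
    (hx : x ∈ P) (hxA : x ∉ A) {a : Ω} (ha : a ∈ A) :
    a ∈ Subgroup.normalizer (P : Set Ω) ↔ a * x * a⁻¹ * x⁻¹ ∈ P := by
  have : Finite P := finite_of_le hP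
  constructor
  · intro haN
    exact P.mul_mem ((Subgroup.mem_normalizer_iff.1 haN x).1 hx) (P.inv_mem hx)
  · intro hc
    refine mem_normalizer_of_forall_conj_mem (fun y hy => ?_)
    obtain ⟨b, hb, k, rfl⟩ := h.exists_eq' hP hx hxA hy
    have h1 : a * x * a⁻¹ ∈ P := by
      have := P.mul_mem hc hx
      rwa [inv_mul_cancel_right] at this
    have h2 : a * (b * x ^ k) * a⁻¹ = (a * b * a⁻¹) * (a * x * a⁻¹) ^ k := by
      rw [conj_zpow]; group
    rw [h2, h.comm a ha b hb.1, mul_inv_cancel_right]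
    exact P.mul_mem hb.2 (P.zpow_mem h1 k)


theorem core (h : Setup p S A) (F : FusionSystem S) (hF : F.IsSaturated p) {P : Subgroup Ω}
    (hP : F.IsEssential p P) (hPA : P ≠ A) :
    ∃ x ∈ P, x ∉ A ∧ Nat.card (normalizerIn S P) = p * Nat.card P ∧
      ∃ Y : Subgroup Ω, (∀ a, a ∈ Y ↔ a ∈ A ∧ a * x * a⁻¹ * x⁻¹ ∈ ZS S) ∧
        Nat.card Y = p * Nat.card (ZS S) ∧ (A ⊓ P = ZS S ∨ A ⊓ P = Y) := by
  have hPS : P ≤ S := hP.1.1
  have : Finite P := finite_of_le hPS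
  have hfA : Finite A := finite_of_le h.le
  have hcen : centralizerIn S P ≤ P := hP.1.2 P (isConj_refl F hPS)
  have hnle : ¬ P ≤ A := by
    intro hle
    apply hPA
    refine le_antisymm hle (fun a ha => hcen ?_)
    exact (Helper87.mem_centralizerIn_iff _ _ _).2 ⟨h.le ha, fun y hy => h.comm y (hle hy) a ha⟩
  obtain ⟨x, hxP, hxA⟩ := SetLike.not_le_iff_exists.1 hnle
  have hxS := hPS hxP
  have hZP : ZS S ≤ P := by
    intro z hz
    obtain ⟨hzS, hzc⟩ := mem_ZS.1 hz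
    exact hcen ((Helper87.mem_centralizerIn_iff _ _ _).2 ⟨hzS, fun y hy => hzc y (hPS hy)⟩)
  obtain ⟨α, hα, hα'⟩ := exists_alpha h.hS F hF hP
  set x' : P := ⟨x, hxP⟩ with hx'
  set P0 : Subgroup P := A.subgroupOf P with hP0
  have hP0n : P0.Normal := by
    refine ⟨fun n hn g => ?_⟩
    show ((g * n * g⁻¹ : P) : Ω) ∈ A
    simp only [Subgroup.coe_mul, Subgroup.coe_inv]
    exact h.conj_mem (hPS g.2) hn
  set P1 : Subgroup P := P0.comap α.toMonoidHom with hP1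
  have hP1n : P1.Normal := inferInstance
  set N : Subgroup P := P0 ⊓ P1 with hN
  have hNn : N.Normal := inferInstance
  -- commutators with elements of `A`
  have hfix : ∀ (b : Ω) (hb : b ∈ A) (hbN : b ∈ Subgroup.normalizer (P : Set Ω)) (g : P),
      g ∈ P0 → conjAut P b hbN g = g := by
    intro b hb hbN g hg
    apply Subtype.ext
    rw [conjAut_apply, h.comm b hb g hg, mul_inv_cancel_right]
  have key1 : ∀ (a : Ω) (ha : a ∈ A) (haN : a ∈ Subgroup.normalizer (P : Set Ω)),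
      conjAut P a haN x' * x'⁻¹ ∈ N → a ∈ P := by
    intro a ha haN hc
    refine lemmaK h F hF hP hxP hxA hα hα' ha haN (fun g => ?_)
    have hxc : x' ∈ commSub (conjAut P a haN) N := by
      rw [mem_commSub]
      have h1 : x'⁻¹ * conjAut P a haN x' = x'⁻¹ * (conjAut P a haN x' * x'⁻¹) * x'⁻¹⁻¹ := by group
      rw [h1]
      exact hNn.conj_mem _ hc _
    have hg : g ∈ commSub (conjAut P a haN) N := by
      obtain ⟨b, hb, k, hgb⟩ := h.exists_eq' hPS hxP hxA g.2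
      have h1 : g = ⟨b, hb.2⟩ * x' ^ k := by
        apply Subtype.ext
        rw [hgb]
        simp [hx']
      rw [h1]
      refine Subgroup.mul_mem _ ?_ (Subgroup.zpow_mem _ hxc k)
      rw [mem_commSub, hfix a ha haN ⟨b, hb.2⟩ hb.1, inv_mul_cancel]
      exact Subgroup.one_mem _
    exact (mem_commSub.1 hg).2
  -- an element of `N_A(P)` outside `P`
  obtain ⟨a1, ha1, ha1N, ha1P⟩ : ∃ a1 ∈ A, a1 ∈ Subgroup.normalizer (P : Set Ω) ∧ a1 ∉ P := by
    obtain ⟨g, hgS, hgN, hgP⟩ := exists_normalizer_growth h.hS (essential_lt h.hS hF hP)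
    obtain ⟨b, hb, k, rfl⟩ := h.exists_eq hxS hxA hgS
    have hxk : x ^ k ∈ P := P.zpow_mem hxP k
    refine ⟨b, hb, ?_, fun hbP => hgP (P.mul_mem hbP hxk)⟩
    have := Subgroup.mul_mem _ hgN (Subgroup.inv_mem _ (Subgroup.le_normalizer hxk))
    rwa [mul_inv_cancel_right] at this
  have hcP0 : ∀ (a : Ω) (ha : a ∈ A) (haN : a ∈ Subgroup.normalizer (P : Set Ω)),
      conjAut P a haN x' * x'⁻¹ ∈ P0 := by
    intro a ha haN
    show ((conjAut P a haN x' * x'⁻¹ : P) : Ω) ∈ A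
    simp only [Subgroup.coe_mul, Subgroup.coe_inv, conjAut_apply, hx']
    exact (h.psi x hxS ⟨a, ha⟩).2
  have hcard1 : Nat.card P1 = Nat.card P0 := by
    rw [hP1, Subgroup.comap_equiv_eq_map_symm']
    exact Subgroup.card_map_of_injective (MulEquiv.injective _)
  have hne : P1 ≠ P0 := by
    intro heq
    apply ha1P
    refine key1 a1 ha1 ha1N ⟨hcP0 a1 ha1 ha1N, ?_⟩
    rw [heq]
    exact hcP0 a1 ha1 ha1N
  obtain ⟨y, hy1, hy0⟩ : ∃ y ∈ P1, y ∉ P0 := by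
    by_contra hcon
    push Not at hcon
    exact hne (Subgroup.eq_of_le_of_card_ge hcon hcard1.ge)
  have hnle01 : ¬ P0 ≤ P1 := by
    intro hle
    exact hne (Subgroup.eq_of_le_of_card_ge hle hcard1.le).symm
  -- `N ≤ Z(S)`
  have hNZ : ∀ r ∈ N, (r : Ω) ∈ ZS S := by
    intro r hr
    refine h.mem_center (hPS y.2) hy0 hr.1 ?_
    have h1 : α (r * y) = α (y * r) := by
      rw [map_mul, map_mul]
      apply Subtype.ext
      exact h.comm _ hr.2 _ hy1
    exact congrArg Subtype.val (α.injective h1)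
  have hidx0 : P0.index = p := h.relIndex_eq hPS hnle
  have hidx1 : P1.index = p := by
    rw [hP1, Subgroup.index_comap_of_surjective _ (MulEquiv.surjective _), hidx0]
  have hrel : N.relIndex P0 = p := by
    rw [hN, Subgroup.inf_relIndex_left]
    have h1 : P1.relIndex P0 ∣ P1.index := Subgroup.relIndex_dvd_index_of_normal _ _
    rw [hidx1] at h1
    rcases (Nat.dvd_prime (Fact.out : p.Prime)).1 h1 with h2 | h2
    · exact absurd (Subgroup.relIndex_eq_one.1 h2) hnle01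
    · exact h2
  set RΩ : Subgroup Ω := N.map P.subtype with hRΩ
  have hRrel : RΩ.relIndex (A ⊓ P) = p := by
    rw [← Subgroup.subgroupOf_map_subtype, hRΩ,
      Subgroup.relIndex_map_map_of_injective _ _ P.subtype_injective]
    exact hrel
  have hRle : RΩ ≤ A ⊓ P := by
    rintro _ ⟨r, hr, rfl⟩
    exact ⟨hr.1, r.2⟩
  have hRZ : RΩ ≤ ZS S := by
    rintro _ ⟨r, hr, rfl⟩
    exact hNZ r hr
  set ψ := h.psi x hxS with hψ
  set X0 : Subgroup A := (A ⊓ P).subgroupOf A with hX0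
  set XR : Subgroup A := RΩ.subgroupOf A with hXR
  set XZ : Subgroup A := (ZS S).subgroupOf A with hXZ
  have hmemR : ∀ r : P, (r : Ω) ∈ RΩ ↔ r ∈ N := by
    intro r
    constructor
    · rintro ⟨r', hr', e⟩
      have : r' = r := Subtype.ext e
      exact this ▸ hr'
    · intro hr
      exact ⟨r, hr, rfl⟩
  have c1 : XR.comap ψ = X0 := by
    ext a
    constructor
    · intro ha
      have ha' : (a : Ω) * x * (a : Ω)⁻¹ * x⁻¹ ∈ RΩ := ha
      have haN : (a : Ω) ∈ Subgroup.normalizer (P : Set Ω) :=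
        (h.mem_normalizer_iff hPS hxP hxA a.2).2 (hRle ha').2
      refine ⟨a.2, key1 a a.2 haN ?_⟩
      rw [← hmemR]
      exact ha'
    · intro ha
      show (a : Ω) * x * (a : Ω)⁻¹ * x⁻¹ ∈ RΩ
      have h1 : (a : Ω) * x * (a : Ω)⁻¹ * x⁻¹ =
          (((⟨a, ha.2⟩ : P) * x' * (⟨a, ha.2⟩ : P)⁻¹ * x'⁻¹ : P) : Ω) := rfl
      rw [h1, hmemR]
      refine ⟨(ψ a).2, ?_⟩
      show ((α ((⟨a, ha.2⟩ : P) * x' * (⟨a, ha.2⟩ : P)⁻¹ * x'⁻¹) : P) : Ω) ∈ A
      rw [map_mul, map_mul, map_mul, map_inv, map_inv]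
      exact h.comm_mem hxS hxA (hPS (α ⟨a, ha.2⟩).2) (hPS (α x').2)
  have hXR0 : XR ≤ X0 := fun a ha => hRle ha
  have hX0le : X0 ≤ X0.comap ψ :=
    c1.symm.le.trans (Subgroup.comap_mono hXR0)
  have hXrel : XR.relIndex X0 = p := by
    rw [hXR, hX0, Subgroup.relIndex_subgroupOf inf_le_left]
    exact hRrel
  have c2 : X0.relIndex (X0.comap ψ) = p := by
    have h0 : X0.relIndex (X0.comap ψ) = (XR.comap ψ).relIndex (X0.comap ψ) := by rw [c1]
    rw [h0, Subgroup.relIndex_comap]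
    refine relIndex_eq_prime ?_ hXrel (Subgroup.map_comap_le _ _) ?_
    · refine ⟨fun n hn g => ?_⟩
      have h1 : g * n * g⁻¹ = n := by
        apply Subtype.ext
        apply Subtype.ext
        show ((g : A) : Ω) * ((n : A) : Ω) * ((g : A) : Ω)⁻¹ = ((n : A) : Ω)
        rw [h.comm _ (g : A).2 _ (n : A).2, mul_inv_cancel_right]
      rw [h1]
      exact hn
    · intro hle
      apply ha1P
      have h1 : (⟨a1, ha1⟩ : A) ∈ X0.comap ψ := by
        show a1 * x * a1⁻¹ * x⁻¹ ∈ A ⊓ P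
        exact ⟨(ψ ⟨a1, ha1⟩).2, (h.mem_normalizer_iff hPS hxP hxA ha1).1 ha1N⟩
      have h2 : (⟨a1, ha1⟩ : A) ∈ XR.comap ψ := hle ⟨_, h1, rfl⟩
      rw [c1] at h2
      exact h2.2
  have cardA1 : Nat.card (X0.comap ψ) = p * Nat.card X0 := by
    rw [card_eq_relIndex_mul hX0le, c2]
  have cardX0 : Nat.card X0 = Nat.card (A ⊓ P : Subgroup Ω) :=
    Nat.card_congr (Subgroup.subgroupOfEquivOfLe inf_le_left).toEquiv
  have hNA : (normalizerIn S P ⊓ A).subgroupOf A = X0.comap ψ := by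
    ext a
    constructor
    · intro ha
      exact ⟨(ψ a).2, (h.mem_normalizer_iff hPS hxP hxA a.2).1 ha.1.2⟩
    · intro ha
      exact ⟨⟨h.le a.2, (h.mem_normalizer_iff hPS hxP hxA a.2).2 ha.2⟩, a.2⟩
  have cardNA : Nat.card (normalizerIn S P ⊓ A : Subgroup Ω) = p * Nat.card (A ⊓ P : Subgroup Ω) := by
    rw [← cardX0, ← cardA1, ← hNA]
    exact (Nat.card_congr (Subgroup.subgroupOfEquivOfLe inf_le_right).toEquiv).symm
  have hxN : x ∈ normalizerIn S P := ⟨hxS, Subgroup.le_normalizer hxP⟩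
  have cardN : Nat.card (normalizerIn S P) = p * Nat.card P := by
    rw [h.card_eq (Q := normalizerIn S P) inf_le_left (fun hle => hxA (hle hxN)), cardNA,
      h.card_eq hPS hnle, inf_comm P A]
  refine ⟨x, hxP, hxA, cardN, (XZ.comap ψ).map A.subtype, ?_, ?_⟩
  · intro a
    constructor
    · rintro ⟨a', ha', rfl⟩
      exact ⟨a'.2, ha'⟩
    · rintro ⟨ha, hc⟩
      exact ⟨⟨a, ha⟩, hc, rfl⟩
  rw [Subgroup.card_map_of_injective A.subtype_injective]
  by_cases hab : ∀ b ∈ A ⊓ P, b * x = x * b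
  · have hZ : A ⊓ P = ZS S :=
      le_antisymm (fun b hb => h.mem_center hxS hxA hb.1 (hab b hb)) (le_inf h.center_le hZP)
    have h1 : XZ = X0 := by rw [hXZ, hX0, hZ]
    refine ⟨?_, Or.inl hZ⟩
    rw [h1, cardA1, cardX0, hZ]
  · push Not at hab
    obtain ⟨b0, hb0, hb0x⟩ := hab
    have hZR : ZS S ≤ RΩ := by
      intro z hz
      have hzP := hZP hz
      have h1 : z = ((⟨z, hzP⟩ : P) : Ω) := rfl
      rw [h1, hmemR]
      refine ⟨h.center_le hz, ?_⟩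
      by_contra hzA
      have hzA' : ((α ⟨z, hzP⟩ : P) : Ω) ∉ A := hzA
      apply hb0x
      have h2 : b0 ∈ ZS S := by
        refine h.mem_center (hPS (α ⟨z, hzP⟩).2) hzA' hb0.1 ?_
        have h3 : α⁻¹ ⟨b0, hb0.2⟩ * ⟨z, hzP⟩ = ⟨z, hzP⟩ * α⁻¹ ⟨b0, hb0.2⟩ := by
          apply Subtype.ext
          exact (mem_ZS.1 hz).2 _ (hPS (α⁻¹ ⟨b0, hb0.2⟩).2)
        have h4 := congrArg α h3
        rw [map_mul, map_mul, MulAut.apply_inv_self] at h4
        exact congrArg Subtype.val h4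
      exact ((mem_ZS.1 h2).2 x hxS).symm
    have hRZeq : RΩ = ZS S := le_antisymm hRZ hZR
    have h1 : XZ = XR := by rw [hXZ, hXR, hRZeq]
    refine ⟨?_, Or.inr ?_⟩
    · rw [h1, c1, cardX0, card_eq_relIndex_mul hRle, hRrel, hRZeq]
    · rw [h1, c1, hX0, Subgroup.subgroupOf_map_subtype, inf_assoc, inf_comm P A, ← inf_assoc, inf_idem]

end Cfsg.Agent.Lib.Helper86.Oliver
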