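import Cfsg.Agent.Lib.Helper86.OliverD
import Cfsg.Agent.Lib.Helper89.OliverGroup

set_option autoImplicit false

namespace Cfsg.Agent.Lib.Helper86.Oliver

open Cfsg Cfsg.FusionSystem Cfsg.Agent.Lib

variable {Ω : Type*} [Group Ω] {S : Subgroup Ω} [Finite S]

theorem setup_of (p : ℕ) [Fact p.Prime] (hS : IsPGroup p S) (hna : ¬ IsMulCommutative ↥S)
    (A : Subgroup Ω) (hA : A ≤ S ∧ IsMulCommutative ↥A ∧ (A.subgroupOf S).index = p) :
    Setup p S A :=
  ⟨hS, hA.1, fun a ha b hb => congrArg Subtype.val (hA.2.1.is_comm.comm ⟨a, ha⟩ ⟨b, hb⟩), hA.2.2, hna⟩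

/-- Everything about an essential subgroup `P ≠ A`. -/
theorem main (p : ℕ) [Fact p.Prime] (hS : IsPGroup p S) (F : FusionSystem S)
    (hF : F.IsSaturated p) (hna : ¬ IsMulCommutative ↥S) (A : Subgroup Ω)
    (hA : A ≤ S ∧ IsMulCommutative ↥A ∧ (A.subgroupOf S).index = p)
    (huniq : ∀ B : Subgroup Ω, B ≤ S → IsMulCommutative ↥B → (B.subgroupOf S).index = p → B = A)
    (P : Subgroup Ω) (hP : F.IsEssential p P) (hPA : P ≠ A) :
    Nat.card ↥((S ⊓ Subgroup.centralizer (S : Set Ω)) ⊓ ((commutator ↥S).map S.subtype)) = p ∧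
    Nat.card (normalizerIn S P) = p * Nat.card P ∧
    ∃ x ∈ S, x ∉ A ∧ (P = (S ⊓ Subgroup.centralizer (S : Set Ω)) ⊔ Subgroup.zpowers x ∨
      P = ((upperCentralSeries ↥S 2).map S.subtype) ⊔ Subgroup.zpowers x) := by
  have h := setup_of p hS hna A hA
  obtain ⟨x, hxP, hxA, cardN, Y, hY, cardY, hcase⟩ := core h F hF hP hPA
  have hPS : P ≤ S := hP.1.1
  have hxS := hPS hxP
  have h1 := Helper89.oliver_card_preimage p hS A hA hna x hxS hxA Y hY
  have hZpos : 0 < Nat.card ↥(S ⊓ Subgroup.centralizer (S : Set Ω)) := by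
    have : Finite ↥(S ⊓ Subgroup.centralizer (S : Set Ω)) := finite_of_le inf_le_left
    exact Nat.card_pos
  have hcard : Nat.card ↥((S ⊓ Subgroup.centralizer (S : Set Ω)) ⊓
      ((commutator ↥S).map S.subtype)) = p := by
    rw [cardY, mul_comm] at h1
    exact (Nat.eq_of_mul_eq_mul_left hZpos h1).symm
  obtain ⟨hZ2A, -⟩ := Helper89.oliver_group p hS A hA hna huniq hcard
  have hYZ : Y = (upperCentralSeries ↥S 2).map S.subtype := by
    ext a
    rw [hY]
    constructor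
    · rintro ⟨ha, hc⟩
      exact (Helper89.oliver_mem_Z2_iff p hS A hA hna x hxS hxA a ha).2 hc
    · intro ha
      exact ⟨hZ2A ha, (Helper89.oliver_mem_Z2_iff p hS A hA hna x hxS hxA a (hZ2A ha)).1 ha⟩
  refine ⟨hcard, cardN, x, hxS, hxA, ?_⟩
  have hsup := h.eq_sup hPS hxP hxA
  rcases hcase with hc | hc
  · left
    rw [hc] at hsup
    exact hsup
  · right
    rw [hc, hYZ] at hsup
    exact hsup


theorem s5254 (p : ℕ) [Fact p.Prime] (hS : IsPGroup p S) (F : Cfsg.FusionSystem S)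
    (hF : F.IsSaturated p) (hna : ¬ IsMulCommutative ↥S) (A : Subgroup Ω)
    (hA : A ≤ S ∧ IsMulCommutative ↥A ∧ (A.subgroupOf S).index = p)
    (huniq : ∀ B : Subgroup Ω, B ≤ S → IsMulCommutative ↥B → (B.subgroupOf S).index = p → B = A)
    (P : Subgroup Ω) (hP : F.IsEssential p P) :
    (P = A ∨ (∃ x ∈ S, x ∉ A ∧ P = (S ⊓ Subgroup.centralizer (S : Set Ω)) ⊔ Subgroup.zpowers x) ∨
      (((upperCentralSeries ↥S 2).map S.subtype) ≤ A ∧ ∃ x ∈ S, x ∉ A ∧
        P = ((upperCentralSeries ↥S 2).map S.subtype) ⊔ Subgroup.zpowers x)) ∧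
      (P.subgroupOf (S ⊓ Subgroup.normalizer (P : Set Ω))).index = p := by
  have h := setup_of p hS hna A hA
  by_cases hPA : P = A
  · subst hPA
    refine ⟨Or.inl rfl, ?_⟩
    have h1 : S ⊓ Subgroup.normalizer (P : Set Ω) = S := by
      refine inf_eq_left.2 (fun s hs => ?_)
      have : Finite P := finite_of_le h.le
      exact mem_normalizer_of_forall_conj_mem (fun y hy => h.conj_mem hs hy)
    rw [h1]
    exact hA.2.2
  · obtain ⟨hcard, cardN, x, hxS, hxA, hcase⟩ := main p hS F hF hna A hA huniq P hP hPA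
    obtain ⟨hZ2A, -⟩ := Helper89.oliver_group p hS A hA hna huniq hcard
    refine ⟨Or.inr ?_, ?_⟩
    · rcases hcase with hc | hc
      · exact Or.inl ⟨x, hxS, hxA, hc⟩
      · exact Or.inr ⟨hZ2A, x, hxS, hxA, hc⟩
    · have hle : P ≤ normalizerIn S P := le_inf hP.1.1 Subgroup.le_normalizer
      have h2 := card_eq_relIndex_mul hle
      rw [cardN] at h2
      have : Finite P := finite_of_le hP.1.1
      have hpos : 0 < Nat.card P := Nat.card_pos
      exact (Nat.eq_of_mul_eq_mul_right hpos h2).symm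

theorem s5257 (p : ℕ) [Fact p.Prime] (hS : IsPGroup p S) (F : Cfsg.FusionSystem S)
    (hF : F.IsSaturated p) (hna : ¬ IsMulCommutative ↥S) (A : Subgroup Ω)
    (hA : A ≤ S ∧ IsMulCommutative ↥A ∧ (A.subgroupOf S).index = p)
    (huniq : ∀ B : Subgroup Ω, B ≤ S → IsMulCommutative ↥B → (B.subgroupOf S).index = p → B = A)
    (P : Subgroup Ω) (hP : F.IsEssential p P) (hPA : P ≠ A) :
    ((upperCentralSeries ↥S 2).map S.subtype) ≤ A ∧
    Nat.card ↥((S ⊓ Subgroup.centralizer (S : Set Ω)) ⊓ ((commutator ↥S).map S.subtype)) = p ∧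
    (((S ⊓ Subgroup.centralizer (S : Set Ω)) ⊔ ((commutator ↥S).map S.subtype)).subgroupOf A).index = p ∧
    (((S ⊓ Subgroup.centralizer (S : Set Ω))).subgroupOf ((upperCentralSeries ↥S 2).map S.subtype)).index = p ∧
    ∀ m : ℕ, ((S ⊓ Subgroup.centralizer (S : Set Ω)).subgroupOf S).index = p ^ m → 3 ≤ m →
      ¬ Subgroup.lowerCentralSeries S (m - 2) ≤ (S ⊓ Subgroup.centralizer (S : Set Ω)) := by
  obtain ⟨hcard, -⟩ := main p hS F hF hna A hA huniq P hP hPA
  obtain ⟨h1, h2, h3, h4, -⟩ := Helper89.oliver_group p hS A hA hna huniq hcard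
  exact ⟨h1, hcard, h2, h3, h4⟩

end Cfsg.Agent.Lib.Helper86.Oliver
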