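import Cfsg.Agent.Lib.Helper90.Biset.Exists

set_option autoImplicit false
universe u

namespace Cfsg.Agent.Lib.Helper86.Park

open Cfsg Cfsg.FusionSystem Cfsg.Agent.Lib.Helper87 Cfsg.Agent.Lib.Helper90.Marks
  Cfsg.Agent.Lib.Helper90.Biset

theorem M_smul {Γ : Type*} [Group Γ] [Fintype (Subgroup Γ)] (g : ℕ) (c : Subgroup Γ → ℕ)
    (L : Subgroup Γ) : M (fun D => g * c D) L = g * M c L := by
  unfold M
  rw [Finset.mul_sum]
  exact Finset.sum_congr rfl (fun D _ => by rw [mul_assoc])

variable {Ω : Type u} [Group Ω] {S : Subgroup Ω}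

theorem M_c0_ne_zero [Finite S] [Fintype (Subgroup (↥S × ↥S))] (F : FusionSystem S) :
    M (c0 F) (gr 1) ≠ 0 := by
  classical
  have : Fintype (F.autGroup S ⧸ (autInducedBy S S).subgroupOf (F.autGroup S)) :=
    Fintype.ofFinite _
  unfold M
  rw [sum_c0 F (fun D => mk D (gr 1))]
  intro h
  rw [Finset.sum_eq_zero_iff] at h
  have h1 := h ((1 : F.autGroup S) : F.autGroup S ⧸ (autInducedBy S S).subgroupOf (F.autGroup S))
    (Finset.mem_univ _)
  obtain ⟨i, hi⟩ := QuotientGroup.mk_out_eq_mul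
    ((autInducedBy S S).subgroupOf (F.autGroup S)) (1 : F.autGroup S)
  rw [hi] at h1
  obtain ⟨γ, hγ⟩ := gr_mul_conj (F := F) (α := 1)
    (i := ((i : F.autGroup S) : MulAut ↥S)) (F.autGroup S).one_mem i.2
  have h2 : mk (gr ((1 : MulAut ↥S) * ((i : F.autGroup S) : MulAut ↥S))) (gr 1) = 0 := h1
  rw [hγ, mk_cjs_left] at h2
  exact absurd h2 (mk_self_pos _).ne'

/-- P1: a coefficient function supported on the twisted diagonals of `F` whose marks on twisted diagonals
depend only on the order. No saturation is needed. -/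
theorem exists_stable_coeff [Finite S] [Fintype (Subgroup (↥S × ↥S))] (F : FusionSystem S) :
    ∃ c : Subgroup (↥S × ↥S) → ℕ, (∀ D, c D ≠ 0 → IsTw F D) ∧ M c (tw S S id) ≠ 0 ∧
      ∀ L L' : Subgroup (↥S × ↥S), IsTw F L → IsTw F L' → Nat.card L = Nat.card L' →
        M c L = M c L' := by
  set n := Nat.card S with hn
  set g := Nat.card (↥S × ↥S) with hg
  have hg0 : g ≠ 0 := Nat.card_pos.ne'
  have h1A : (1 : MulAut ↥S) ∈ F.autGroup S := (F.autGroup S).one_mem
  have key : ∀ j : ℕ, ∃ c : Subgroup (↥S × ↥S) → ℕ, (∀ D, c D ≠ 0 → IsTw F D) ∧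
      M c (gr 1) ≠ 0 ∧
      ∀ L L' : Subgroup (↥S × ↥S), IsTw F L → IsTw F L' → n - j ≤ Nat.card L →
        Nat.card L = Nat.card L' → M c L = M c L' := by
    intro j
    induction j with
    | zero =>
      refine ⟨c0 F, fun D hD => ?_, M_c0_ne_zero F, fun L L' hL hL' hc hcc => ?_⟩
      · obtain ⟨α, hα, rfl⟩ := c0_ne_zero hD
        exact isTw_gr hα
      · obtain ⟨α, hα, rfl⟩ := exists_gr_of_card hL (by simpa using hc)
        obtain ⟨α', hα', rfl⟩ := exists_gr_of_card hL' (by rw [← hcc]; simpa using hc)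
        rw [M_c0_gr F hα, M_c0_gr F hα']
    | succ j ih =>
      obtain ⟨c, h1, h2, h3⟩ := ih
      by_cases hj : n - j = 0
      · exact ⟨c, h1, h2, fun L L' hL hL' _ => h3 L L' hL hL' (by omega)⟩
      · have hk : n - (j + 1) < n := by omega
        obtain ⟨c', g1, g2, g3⟩ := step (IsTw F) (fun γ D h => h.cjs γ)
          (fun _ : Subgroup (↥S × ↥S) => ()) (fun _ _ => rfl) (fun D => g * c D) (n - (j + 1))
          (fun _ => ⟨0, fun E _ _ _ => by
            rw [sub_zero, M_smul]
            exact_mod_cast Dvd.dvd.mul_right (mk_self_dvd E) _⟩)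
        refine ⟨c', ?_, ?_, ?_⟩
        · intro D hD
          by_cases hcD : c' D = g * c D
          · refine h1 D (fun h0 => hD ?_)
            rw [hcD, h0, mul_zero]
          · exact (g1 D hcD).1
        · rw [g2 (gr 1) (by rw [card_gr h1A]; exact hk), M_smul]
          exact mul_ne_zero hg0 h2
        · intro L L' hL hL' hle hcard
          rcases Nat.lt_or_ge (n - (j + 1)) (Nat.card L) with hlt | hge
          · rw [g2 L hlt, g2 L' (by rwa [← hcard]), M_smul, M_smul,
              h3 L L' hL hL' (by omega) hcard]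
          · have hkL : Nat.card L = n - (j + 1) := le_antisymm hge hle
            exact g3 L L' hL hL' hkL (by rw [← hcard, hkL]) rfl
  obtain ⟨c, h1, h2, h3⟩ := key n
  refine ⟨c, h1, ?_, fun L L' hL hL' => h3 L L' hL hL' (by simp)⟩
  have : tw S S id = gr 1 := by
    unfold gr
    apply tw_congr
    intro x hx
    rw [autFun_apply _ hx]
    rfl
  rw [this]; exact h2

end Cfsg.Agent.Lib.Helper86.Park
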