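import Mathlib

set_option autoImplicit false
universe u

namespace Cfsg.Agent.Lib.Helper86.Park

open MulAction

variable {H : Type*} [Group H]

/-- the number of `L`-fixed points in an orbit depends only on the stabilizer -/
theorem card_orbit_fixed {X : Type*} [MulAction H X] (x₀ : X) (L : Subgroup H) :
    Nat.card {x : X // x ∈ orbit H x₀ ∧ ∀ l ∈ L, l • x = x} =
      Nat.card {q : H ⧸ stabilizer H x₀ // ∀ l ∈ L, l • q = q} := by
  symm
  have key : ∀ (l : H) (q : H ⧸ stabilizer H x₀),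
      (((orbitEquivQuotientStabilizer H x₀).symm (l • q) : orbit H x₀) : X) =
        l • (((orbitEquivQuotientStabilizer H x₀).symm q : orbit H x₀) : X) := by
    intro l q
    obtain ⟨a, rfl⟩ := QuotientGroup.mk_surjective q
    have h1 : l • (QuotientGroup.mk a : H ⧸ stabilizer H x₀) = QuotientGroup.mk (l * a) := rfl
    rw [h1, orbitEquivQuotientStabilizer_symm_apply, orbitEquivQuotientStabilizer_symm_apply,
      mul_smul]
  refine Nat.card_congr
    { toFun := fun q => ⟨((orbitEquivQuotientStabilizer H x₀).symm q.1 : orbit H x₀),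
        ((orbitEquivQuotientStabilizer H x₀).symm q.1).2, fun l hl => by
          rw [← key, q.2 l hl]⟩
      invFun := fun x => ⟨orbitEquivQuotientStabilizer H x₀ ⟨x.1, x.2.1⟩, fun l hl => by
          apply (orbitEquivQuotientStabilizer H x₀).symm.injective
          apply Subtype.ext
          rw [key, Equiv.symm_apply_apply]
          exact x.2.2 l hl⟩
      left_inv := fun q => by
        apply Subtype.ext
        simp
      right_inv := fun x => by
        apply Subtype.ext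
        simp }

theorem card_split {X : Type*} [Finite X] (p s f : X → Prop) (hs : ∀ x, s x → p x) :
    Nat.card {x : X // p x ∧ f x} =
      Nat.card {x : X // (p x ∧ ¬ s x) ∧ f x} + Nat.card {x : X // s x ∧ f x} := by
  classical
  have : Fintype X := Fintype.ofFinite X
  simp only [Nat.card_eq_fintype_card, Fintype.card_subtype]
  rw [← Finset.card_union_of_disjoint]
  · congr 1
    ext x
    simp only [Finset.mem_filter, Finset.mem_univ, true_and, Finset.mem_union]
    constructor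
    · rintro ⟨h1, h2⟩
      by_cases h : s x
      · exact Or.inr ⟨h, h2⟩
      · exact Or.inl ⟨⟨h1, h⟩, h2⟩
    · rintro (⟨⟨h1, -⟩, h2⟩ | ⟨h1, h2⟩)
      · exact ⟨h1, h2⟩
      · exact ⟨hs x h1, h2⟩
  · rw [Finset.disjoint_filter]
    rintro x - ⟨⟨-, h1⟩, -⟩ ⟨h2, -⟩
    exact h1 h2

theorem hpos {Z : Type*} {P : Z → Prop} [Finite Z] : Nat.card {z : Z // P z} ≠ 0 ↔ ∃ z, P z := by
  constructor
  · intro h
    by_contra hcon
    push Not at hcon
    have : IsEmpty {z : Z // P z} := ⟨fun z => hcon z.1 z.2⟩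
    exact h Nat.card_of_isEmpty
  · rintro ⟨z, hz⟩
    have : Nonempty {z : Z // P z} := ⟨⟨z, hz⟩⟩
    exact Nat.card_pos.ne'

theorem smul_mem_orbit_iff' {X : Type*} [MulAction H X] (g : H) (x x₀ : X) :
    g • x ∈ orbit H x₀ ↔ x ∈ orbit H x₀ := by
  constructor
  · rintro ⟨h, hh⟩
    refine ⟨g⁻¹ * h, ?_⟩
    show (g⁻¹ * h) • x₀ = x
    have hh' : h • x₀ = g • x := hh
    rw [mul_smul, hh', inv_smul_smul]
  · rintro ⟨h, rfl⟩
    exact ⟨g * h, mul_smul g h x₀⟩

theorem exists_injective_of_marks [Finite H] {X Y : Type*} [Finite X] [Finite Y] [Nonempty Y]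
    [MulAction H X] [MulAction H Y] (n : ℕ) :
    ∀ (p : X → Prop) (r : Y → Prop), (∀ (g : H) (x : X), p x → p (g • x)) →
      (∀ (g : H) (y : Y), r y → r (g • y)) → Nat.card {x : X // p x} = n →
      (∀ K : Subgroup H, Nat.card {x : X // p x ∧ ∀ k ∈ K, k • x = x} =
        Nat.card {y : Y // r y ∧ ∀ k ∈ K, k • y = y}) →
      ∃ f : X → Y, (∀ x, p x → r (f x)) ∧ (∀ (g : H) (x : X), p x → f (g • x) = g • f x) ∧
        ∀ x x', p x → p x' → f x = f x' → x = x' := by
  classical
  induction n using Nat.strong_induction_on with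
  | _ n ih =>
    intro p r hp hr hn hm
    by_cases hne : ∃ x, p x
    swap
    · push Not at hne
      obtain ⟨y⟩ := (inferInstance : Nonempty Y)
      exact ⟨fun _ => y, fun x hx => absurd hx (hne x), fun _ x hx => absurd hx (hne x),
        fun x _ hx => absurd hx (hne x)⟩
    obtain ⟨x₁, hx₁⟩ := hne
    let 𝒦 : Set (Subgroup H) := {K | ∃ x, p x ∧ ∀ k ∈ K, k • x = x}
    have h𝒦 : 𝒦.Nonempty := ⟨⊥, x₁, hx₁, fun k hk => by
      rw [Subgroup.mem_bot.1 hk, one_smul]⟩
    obtain ⟨K, ⟨x₀, hx₀, hKx⟩, hmax⟩ :=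
      Set.exists_max_image 𝒦 (fun K => Nat.card K) (Set.toFinite _) h𝒦
    have hSx : stabilizer H x₀ = K := by
      symm
      exact Subgroup.eq_of_le_of_card_ge (fun k hk => hKx k hk)
        (hmax _ ⟨x₀, hx₀, fun k hk => hk⟩)
    obtain ⟨y₀, hy₀, hKy⟩ : ∃ y, r y ∧ ∀ k ∈ K, k • y = y := by
      rw [← hpos, ← hm K, hpos]
      exact ⟨x₀, hx₀, hKx⟩
    have hSy : stabilizer H y₀ = K := by
      symm
      refine Subgroup.eq_of_le_of_card_ge (fun k hk => hKy k hk) (hmax _ ?_)
      show ∃ x, p x ∧ ∀ k ∈ stabilizer H y₀, k • x = x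
      rw [← hpos, hm, hpos]
      exact ⟨y₀, hy₀, fun k hk => hk⟩
    have hox : ∀ x, x ∈ orbit H x₀ → p x := by
      rintro _ ⟨g, rfl⟩
      exact hp g x₀ hx₀
    have hoy : ∀ y, y ∈ orbit H y₀ → r y := by
      rintro _ ⟨g, rfl⟩
      exact hr g y₀ hy₀
    have hm' : ∀ L : Subgroup H,
        Nat.card {x : X // (p x ∧ x ∉ orbit H x₀) ∧ ∀ k ∈ L, k • x = x} =
        Nat.card {y : Y // (r y ∧ y ∉ orbit H y₀) ∧ ∀ k ∈ L, k • y = y} := by
      intro L
      have h1 := card_split p (fun x => x ∈ orbit H x₀) (fun x => ∀ k ∈ L, k • x = x) hox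
      have h2 := card_split r (fun y => y ∈ orbit H y₀) (fun y => ∀ k ∈ L, k • y = y) hoy
      have h3 := card_orbit_fixed x₀ L
      have h4 := card_orbit_fixed y₀ L
      rw [hSx] at h3
      rw [hSy] at h4
      have h5 := hm L
      omega
    have hlt : Nat.card {x : X // p x ∧ x ∉ orbit H x₀} < n := by
      have h1 := card_split p (fun x => x ∈ orbit H x₀) (fun _ => True) hox
      simp only [and_true] at h1
      have h2 : Nat.card {x : X // x ∈ orbit H x₀} ≠ 0 := hpos.2 ⟨x₀, mem_orbit_self x₀⟩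
      omega
    obtain ⟨f', hf1, hf2, hf3⟩ := ih _ hlt (fun x => p x ∧ x ∉ orbit H x₀)
      (fun y => r y ∧ y ∉ orbit H y₀)
      (fun g x hx => ⟨hp g x hx.1, fun h => hx.2 ((smul_mem_orbit_iff' g x x₀).1 h)⟩)
      (fun g y hy => ⟨hr g y hy.1, fun h => hy.2 ((smul_mem_orbit_iff' g y y₀).1 h)⟩) rfl hm'
    let f : X → Y := fun x => if h : x ∈ orbit H x₀ then (Classical.choose h) • y₀ else f' x
    have hfo : ∀ g : H, f (g • x₀) = g • y₀ := by
      intro g
      have h : g • x₀ ∈ orbit H x₀ := ⟨g, rfl⟩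
      have h1 : f (g • x₀) = (Classical.choose h) • y₀ := dif_pos h
      have h2 : (Classical.choose h) • x₀ = g • x₀ := Classical.choose_spec h
      have h3 : g⁻¹ * Classical.choose h ∈ stabilizer H x₀ := by
        rw [mem_stabilizer_iff, mul_smul, h2, inv_smul_smul]
      rw [hSx, ← hSy, mem_stabilizer_iff, mul_smul, inv_smul_eq_iff] at h3
      rw [h1, h3]
    have hfn : ∀ x, x ∉ orbit H x₀ → f x = f' x := fun x h => dif_neg h
    refine ⟨f, ?_, ?_, ?_⟩
    · intro x hx
      by_cases h : x ∈ orbit H x₀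
      · obtain ⟨g, rfl⟩ := h
        show r (f (g • x₀))
        rw [hfo]; exact hr g y₀ hy₀
      · rw [hfn x h]; exact (hf1 x ⟨hx, h⟩).1
    · intro g x hx
      by_cases h : x ∈ orbit H x₀
      · obtain ⟨g', rfl⟩ := h
        show f (g • g' • x₀) = g • f (g' • x₀)
        rw [← mul_smul, hfo, hfo, mul_smul]
      · rw [hfn x h, hfn _ (fun h' => h ((smul_mem_orbit_iff' g x x₀).1 h'))]
        exact hf2 g x ⟨hx, h⟩
    · intro x x' hx hx' hxx
      by_cases h : x ∈ orbit H x₀ <;> by_cases h' : x' ∈ orbit H x₀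
      · obtain ⟨g, rfl⟩ := h
        obtain ⟨g', rfl⟩ := h'
        have h1 : f (g • x₀) = f (g' • x₀) := hxx
        rw [hfo, hfo] at h1
        have h2 : g'⁻¹ * g ∈ stabilizer H y₀ := by
          rw [mem_stabilizer_iff, mul_smul, h1, inv_smul_smul]
        rw [hSy, ← hSx, mem_stabilizer_iff, mul_smul, inv_smul_eq_iff] at h2
        exact h2
      · exfalso
        obtain ⟨g, rfl⟩ := h
        have h1 : f (g • x₀) = f x' := hxx
        rw [hfo, hfn x' h'] at h1
        exact (hf1 x' ⟨hx', h'⟩).2 (h1 ▸ ⟨g, rfl⟩)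
      · exfalso
        obtain ⟨g, rfl⟩ := h'
        have h1 : f x = f (g • x₀) := hxx
        rw [hfo, hfn x h] at h1
        exact (hf1 x ⟨hx, h⟩).2 (h1 ▸ ⟨g, rfl⟩)
      · rw [hfn x h, hfn x' h'] at hxx
        exact hf3 x x' ⟨hx, h⟩ ⟨hx', h'⟩ hxx

/-- P2: Burnside's theorem on marks. -/
theorem exists_equiv_of_marks [Finite H] {X Y : Type u} [Finite X] [Finite Y]
    (ρ₁ : H →* Equiv.Perm X) (ρ₂ : H →* Equiv.Perm Y)
    (h : ∀ K : Subgroup H, Nat.card {x : X // ∀ k ∈ K, ρ₁ k x = x} =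
      Nat.card {y : Y // ∀ k ∈ K, ρ₂ k y = y}) :
    ∃ e : X ≃ Y, ∀ (g : H) (x : X), e (ρ₁ g x) = ρ₂ g (e x) := by
  have hcard : Nat.card X = Nat.card Y := by
    have h1 := h ⊥
    have e1 : {x : X // ∀ k ∈ (⊥ : Subgroup H), ρ₁ k x = x} ≃ X :=
      Equiv.subtypeUnivEquiv (fun x k hk => by rw [Subgroup.mem_bot.1 hk, map_one]; rfl)
    have e2 : {y : Y // ∀ k ∈ (⊥ : Subgroup H), ρ₂ k y = y} ≃ Y :=
      Equiv.subtypeUnivEquiv (fun x k hk => by rw [Subgroup.mem_bot.1 hk, map_one]; rfl)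
    rw [Nat.card_congr e1, Nat.card_congr e2] at h1
    exact h1
  by_cases hY : Nonempty Y
  swap
  · rw [not_nonempty_iff] at hY
    have hX : IsEmpty X := by
      rw [← Finite.card_eq_zero_iff, hcard, Finite.card_eq_zero_iff]
      exact hY
    exact ⟨Equiv.equivOfIsEmpty X Y, fun _ x => hX.elim x⟩
  let _ : MulAction H X := MulAction.compHom X ρ₁
  let _ : MulAction H Y := MulAction.compHom Y ρ₂
  obtain ⟨f, -, hf2, hf3⟩ := exists_injective_of_marks (H := H) (X := X) (Y := Y) _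
    (fun _ => True) (fun _ => True) (fun _ _ _ => trivial) (fun _ _ _ => trivial) rfl
    (fun K => by
      simp only [true_and]
      exact h K)
  have hinj : Function.Injective f := fun x x' hxx => hf3 x x' trivial trivial hxx
  have hbij : Function.Bijective f := hinj.bijective_of_nat_card_le hcard.ge
  exact ⟨Equiv.ofBijective f hbij, fun g x => hf2 g x trivial⟩

end Cfsg.Agent.Lib.Helper86.Park
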