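import Cfsg.Agent.Lib.Helper86.ParkSet
import Cfsg.Agent.Lib.Helper86.ParkCoeff
import Cfsg.Agent.Lib.Helper86.ParkMarks
import Cfsg.Agent.Lib.Helper90.Biset.Exists
import Cfsg.Agent.Lib.Helper86.FusionBasic

set_option autoImplicit false
universe u

namespace Cfsg.Agent.Lib.Helper86.Park

open Cfsg Cfsg.FusionSystem Cfsg.Agent.Lib.Helper87 Cfsg.Agent.Lib.Helper90.Marks
  Cfsg.Agent.Lib.Helper90.Biset

variable {Ω : Type u} [Group Ω] {S : Subgroup Ω}

/-- the inclusion `S × P → S × S` -/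
def j₁ {P : Subgroup Ω} (hP : P ≤ S) : ↥S × ↥P →* ↥S × ↥S :=
  MonoidHom.prodMap (MonoidHom.id ↥S) (Subgroup.inclusion hP)

/-- the map `id × φ : S × P → S × S` -/
def j₂ {P : Subgroup Ω} (φ : P →* Ω) (hφ : ∀ x : P, φ x ∈ S) : ↥S × ↥P →* ↥S × ↥S :=
  MonoidHom.prodMap (MonoidHom.id ↥S) (φ.codRestrict S hφ)

theorem isTw_map₂ {F : FusionSystem S} {P : Subgroup Ω} (hP : P ≤ S) (φ : P →* Ω)
    (hφF : φ ∈ F.Hom P) (hφ : ∀ x : P, φ x ∈ S) (K : Subgroup (↥S × ↥P))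
    (h : IsTw F (K.map (j₁ hP))) : IsTw F (K.map (j₂ φ hφ)) := by
  obtain ⟨U, a, ha, hK⟩ := h
  have hf : Mor F P (ext φ) := Mor.of_hom hφF
  have hmem : ∀ u ∈ U, ∃ k ∈ K, (k.2 : Ω) = u ∧ (k.1 : Ω) = a u := by
    intro u hu
    have h1 : ((⟨a u, ha.mem hu⟩, ⟨u, ha.le hu⟩) : ↥S × ↥S) ∈ tw S U a :=
      (mem_tw ha _).2 ⟨hu, rfl⟩
    rw [← hK] at h1
    obtain ⟨k, hk, e⟩ := h1
    exact ⟨k, hk, congrArg (fun z : ↥S × ↥S => (z.2 : Ω)) e,
      congrArg (fun z : ↥S × ↥S => (z.1 : Ω)) e⟩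
  have hUP : U ≤ P := by
    intro u hu
    obtain ⟨k, -, e, -⟩ := hmem u hu
    rw [← e]; exact k.2.2
  have hiso := (hf.mono hUP).iso_img
  obtain ⟨g, hg, hg1, hg2⟩ := hiso.symm
  have ha' : Mor F (img U (ext φ)) (a ∘ g) := hg.mor.comp ha (fun y hy => hg.map_mem hy)
  refine ⟨img U (ext φ), a ∘ g, ha', ?_⟩
  ext z
  rw [mem_tw ha']
  constructor
  · rintro ⟨k, hk, rfl⟩
    have h1 : j₁ hP k ∈ tw S U a := hK ▸ Subgroup.mem_map_of_mem _ hk
    obtain ⟨h2, h3⟩ := (mem_tw ha _).1 h1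
    have h2' : (k.2 : Ω) ∈ U := h2
    have h3' : (k.1 : Ω) = a k.2 := h3
    have h4 : (((j₂ φ hφ) k).2 : Ω) = ext φ k.2 := (ext_coe φ k.2).symm
    refine ⟨?_, ?_⟩
    · rw [h4]; exact hiso.map_mem h2'
    · rw [h4]
      show (k.1 : Ω) = a (g (ext φ k.2))
      rw [hg1 _ h2', h3']
  · rintro ⟨h1, h2⟩
    obtain ⟨k, hk, e1, e2⟩ := hmem (g z.2) (hg.map_mem h1)
    refine ⟨k, hk, ?_⟩
    apply Prod.ext
    · apply Subtype.ext
      show (k.1 : Ω) = z.1
      rw [e2, h2]; rfl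
    · apply Subtype.ext
      show φ k.2 = z.2
      rw [← ext_coe φ k.2, e1, hg2 _ h1]

theorem isTw_map₁ {F : FusionSystem S} {P : Subgroup Ω} (hP : P ≤ S) (φ : P →* Ω)
    (hφF : φ ∈ F.Hom P) (hφ : ∀ x : P, φ x ∈ S) (K : Subgroup (↥S × ↥P))
    (h : IsTw F (K.map (j₂ φ hφ))) : IsTw F (K.map (j₁ hP)) := by
  obtain ⟨U', a', ha', hK⟩ := h
  have hf : Mor F P (ext φ) := Mor.of_hom hφF
  have hmem : ∀ u ∈ U', ∃ k ∈ K, ext φ k.2 = u ∧ (k.1 : Ω) = a' u := by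
    intro u hu
    have h1 : ((⟨a' u, ha'.mem hu⟩, ⟨u, ha'.le hu⟩) : ↥S × ↥S) ∈ tw S U' a' :=
      (mem_tw ha' _).2 ⟨hu, rfl⟩
    rw [← hK] at h1
    obtain ⟨k, hk, e⟩ := h1
    refine ⟨k, hk, ?_, congrArg (fun z : ↥S × ↥S => (z.1 : Ω)) e⟩
    rw [ext_coe]
    exact congrArg (fun z : ↥S × ↥S => (z.2 : Ω)) e
  obtain ⟨g, hg, hg1, hg2⟩ := hf.iso_img.symm
  have hU'Q : U' ≤ img P (ext φ) := by
    intro u hu
    obtain ⟨k, -, e, -⟩ := hmem u hu
    rw [← e]; exact hf.iso_img.map_mem k.2.2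
  have hiso := (hg.mor.mono hU'Q).iso_img
  have hUP : img U' g ≤ P := by
    intro x hx
    obtain ⟨y, hy, rfl⟩ := hiso.surj hx
    exact hg.map_mem (hU'Q hy)
  have ha : Mor F (img U' g) (a' ∘ ext φ) := (hf.mono hUP).comp ha' (fun x hx => by
    obtain ⟨y, hy, rfl⟩ := hiso.surj hx
    rw [hg2 y (hU'Q hy)]; exact hy)
  refine ⟨img U' g, a' ∘ ext φ, ha, ?_⟩
  ext z
  rw [mem_tw ha]
  constructor
  · rintro ⟨k, hk, rfl⟩
    have h1 : j₂ φ hφ k ∈ tw S U' a' := hK ▸ Subgroup.mem_map_of_mem _ hk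
    obtain ⟨h2, h3⟩ := (mem_tw ha' _).1 h1
    have h2' : ext φ k.2 ∈ U' := by rw [ext_coe]; exact h2
    have h3' : (k.1 : Ω) = a' (ext φ k.2) := by rw [ext_coe]; exact h3
    refine ⟨?_, h3'⟩
    show (k.2 : Ω) ∈ img U' g
    rw [← hg1 _ k.2.2]
    exact hiso.map_mem h2'
  · rintro ⟨h1, h2⟩
    obtain ⟨y, hy, e⟩ := hiso.surj h1
    obtain ⟨k, hk, e1, e2⟩ := hmem y hy
    have h3 : (k.2 : Ω) = z.2 := by
      rw [← hg1 _ k.2.2, e1, e]
    refine ⟨k, hk, ?_⟩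
    apply Prod.ext
    · apply Subtype.ext
      show (k.1 : Ω) = z.1
      rw [e2, h2, ← e1, h3]; rfl
    · apply Subtype.ext
      exact h3

theorem j₁_injective {P : Subgroup Ω} (hP : P ≤ S) : Function.Injective (j₁ hP) := by
  intro a b h
  apply Prod.ext
  · exact congrArg (fun z : ↥S × ↥S => z.1) h
  · exact Subgroup.inclusion_injective hP (congrArg (fun z : ↥S × ↥S => z.2) h)

theorem j₂_injective {F : FusionSystem S} {P : Subgroup Ω} (φ : P →* Ω) (hφF : φ ∈ F.Hom P)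
    (hφ : ∀ x : P, φ x ∈ S) : Function.Injective (j₂ φ hφ) := by
  intro a b h
  apply Prod.ext
  · exact congrArg (fun z : ↥S × ↥S => z.1) h
  · have h1 : φ a.2 = φ b.2 := congrArg (fun z : ↥S × ↥S => (z.2 : Ω)) h
    have hf : Mor F P (ext φ) := Mor.of_hom hφF
    apply Subtype.ext
    apply hf.inj a.2.2 b.2.2
    rw [ext_coe, ext_coe, h1]

/-- a subgroup of `S × S` fixing a point of `XSet c` is a twisted diagonal -/
theorem isTw_of_fixed {F : FusionSystem S} (c : Subgroup (↥S × ↥S) → ℕ)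
    (hc : ∀ D, c D ≠ 0 → IsTw F D) (K : Subgroup (↥S × ↥S)) (x : XSet c)
    (hx : ∀ k ∈ K, k • x = x) : IsTw F K := by
  obtain ⟨D, hD, γ, hγ⟩ := exists_of_fixed c K x hx
  exact ((hc D hD).cjs γ).of_le (fun k hk => mem_cjs.2 (hγ k hk))

/-- Park's theorem -/
theorem exists_realization [Finite S] (F : FusionSystem S) :
    ∃ (G : Type u) (_ : Group G) (_ : Finite G) (ι : ↥S →* G), F.IsRealizedBy ι := by
  classical
  have : Fintype (Subgroup (↥S × ↥S)) := Fintype.ofFinite _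
  obtain ⟨c, hc, hc0, hst⟩ := exists_stable_coeff F
  let ρ : ↥S × ↥S →* Equiv.Perm (XSet c) := MulAction.toPermHom (↥S × ↥S) (XSet c)
  have hρ : ∀ (g : ↥S × ↥S) (x : XSet c), ρ g x = g • x := fun _ _ => rfl
  let G : Subgroup (Equiv.Perm (XSet c)) :=
    Subgroup.centralizer (Set.range fun s : ↥S => ρ (s, 1))
  let ι : ↥S →* G := (ρ.comp (MonoidHom.inr ↥S ↥S)).codRestrict G (fun t => by
    rw [Subgroup.mem_centralizer_iff]
    rintro _ ⟨s, rfl⟩
    show ρ (s, 1) * ρ (1, t) = ρ (1, t) * ρ (s, 1)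
    rw [← map_mul, ← map_mul]
    congr 1
    simp)
  have hι : ∀ t : ↥S, ((ι t : G) : Equiv.Perm (XSet c)) = ρ (1, t) := fun _ => rfl
  -- a point fixed by the diagonal
  obtain ⟨y₀, hy₀⟩ : ∃ y₀ : XSet c, ∀ k ∈ tw S S id, k • y₀ = y₀ := by
    rw [← card_fixed] at hc0
    have : Nonempty {x : XSet c // ∀ k ∈ tw S S id, k • x = x} := by
      by_contra hcon
      rw [not_nonempty_iff] at hcon
      exact hc0 Nat.card_of_isEmpty
    obtain ⟨⟨y, hy⟩⟩ := this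
    exact ⟨y, hy⟩
  have hid : Mor F S id := mor_id F le_rfl
  refine ⟨G, inferInstance, inferInstance, ι, ?_, ?_⟩
  · rw [injective_iff_map_eq_one]
    intro t ht
    have h1 : ρ (1, t) = 1 := by rw [← hι, ht]; rfl
    have h2 : ∀ k ∈ Subgroup.zpowers ((1, t) : ↥S × ↥S), k • y₀ = y₀ := by
      rintro _ ⟨i, rfl⟩
      show ((1, t) : ↥S × ↥S) ^ i • y₀ = y₀
      rw [← hρ, map_zpow, h1, one_zpow]; rfl
    obtain ⟨U, a, ha, hU⟩ := isTw_of_fixed c hc _ y₀ h2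
    have h3 : ((1, t) : ↥S × ↥S) ∈ tw S U a := hU ▸ Subgroup.mem_zpowers _
    obtain ⟨h4, h5⟩ := (mem_tw ha _).1 h3
    apply Subtype.ext
    exact ha.eq_one h4 h5.symm
  · intro P hP φ hφ
    constructor
    · intro hφF
      have : Finite P := Cfsg.Agent.Lib.Helper86.finite_of_le hP
      obtain ⟨e, he⟩ := exists_equiv_of_marks (ρ.comp (j₁ hP)) (ρ.comp (j₂ φ hφ)) (fun K => by
        have h1 : Nat.card {x : XSet c // ∀ k ∈ K, (ρ.comp (j₁ hP)) k x = x} =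
            M c (K.map (j₁ hP)) := by
          rw [← card_fixed]
          apply Nat.card_congr
          apply Equiv.subtypeEquivRight
          intro x
          constructor
          · rintro h _ ⟨k, hk, rfl⟩
            exact h k hk
          · intro h k hk
            exact h _ (Subgroup.mem_map_of_mem _ hk)
        have h2 : Nat.card {x : XSet c // ∀ k ∈ K, (ρ.comp (j₂ φ hφ)) k x = x} =
            M c (K.map (j₂ φ hφ)) := by
          rw [← card_fixed]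
          apply Nat.card_congr
          apply Equiv.subtypeEquivRight
          intro x
          constructor
          · rintro h _ ⟨k, hk, rfl⟩
            exact h k hk
          · intro h k hk
            exact h _ (Subgroup.mem_map_of_mem _ hk)
        rw [h1, h2]
        by_cases hT : IsTw F (K.map (j₁ hP))
        · refine hst _ _ hT (isTw_map₂ hP φ hφF hφ K hT) ?_
          rw [Subgroup.card_map_of_injective (j₁_injective hP),
            Subgroup.card_map_of_injective (j₂_injective φ hφF hφ)]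
        · have hT' : ¬ IsTw F (K.map (j₂ φ hφ)) := fun h => hT (isTw_map₁ hP φ hφF hφ K h)
          rw [M_eq_zero c hc hT, M_eq_zero c hc hT'])
      have heG : e ∈ G := by
        rw [Subgroup.mem_centralizer_iff]
        rintro _ ⟨s, rfl⟩
        ext x
        have h1 := he (s, 1) x
        have h2 : j₁ hP ((s, 1) : ↥S × ↥P) = (s, 1) := rfl
        have h3 : j₂ φ hφ ((s, 1) : ↥S × ↥P) = (s, 1) := by
          refine Prod.ext rfl ?_
          apply Subtype.ext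
          exact φ.map_one
        rw [MonoidHom.comp_apply, MonoidHom.comp_apply, h2, h3] at h1
        exact h1.symm
      refine ⟨⟨e, heG⟩, fun x => ?_⟩
      rw [eq_mul_inv_iff_mul_eq]
      apply Subtype.ext
      ext y
      have h1 := he (1, x) y
      exact h1.symm
    · rintro ⟨g, hg⟩
      -- the graph of `φ` fixes `g y₀`
      let κ : ↥P →* ↥S × ↥S := MonoidHom.prod (Subgroup.inclusion hP) (φ.codRestrict S hφ)
      have hfix : ∀ k ∈ κ.range, k • (g : Equiv.Perm (XSet c)) y₀ = (g : Equiv.Perm (XSet c)) y₀ := by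
        rintro _ ⟨x, rfl⟩
        have h1 : κ x = ((⟨x, hP x.2⟩ : ↥S), (1 : ↥S)) * ((1 : ↥S), (⟨φ x, hφ x⟩ : ↥S)) := by
          refine Prod.ext ?_ ?_
          · show (⟨x, hP x.2⟩ : ↥S) = ⟨x, hP x.2⟩ * 1
            rw [mul_one]
          · show (⟨φ x, hφ x⟩ : ↥S) = 1 * ⟨φ x, hφ x⟩
            rw [one_mul]
        have h2 : (ρ (1, ⟨φ x, hφ x⟩)) ((g : Equiv.Perm (XSet c)) y₀) =
            (g : Equiv.Perm (XSet c)) (ρ (1, ⟨x, hP x.2⟩) y₀) := by
          have h3 := congrArg (fun z : G => (z : Equiv.Perm (XSet c)) ((g : Equiv.Perm (XSet c)) y₀))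
            (hg x)
          simp only [Subgroup.coe_mul, Subgroup.coe_inv, Equiv.Perm.mul_apply] at h3
          have h6 : ((g : Equiv.Perm (XSet c)))⁻¹ ((g : Equiv.Perm (XSet c)) y₀) = y₀ :=
            Equiv.symm_apply_apply _ _
          rw [h6] at h3
          exact h3
        have h4 : ∀ y : XSet c, ρ (⟨x, hP x.2⟩, 1) ((g : Equiv.Perm (XSet c)) y) =
            (g : Equiv.Perm (XSet c)) (ρ (⟨x, hP x.2⟩, 1) y) := by
          intro y
          have h5 := Subgroup.mem_centralizer_iff.1 g.2 _ ⟨⟨x, hP x.2⟩, rfl⟩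
          exact congrArg (fun z : Equiv.Perm (XSet c) => z y) h5
        rw [h1, mul_smul, ← hρ, ← hρ, h2, h4]
        congr 1
        rw [hρ, hρ, ← mul_smul]
        apply hy₀
        rw [mem_tw hid]
        refine ⟨Subtype.property _, ?_⟩
        show ((⟨x, hP x.2⟩ * 1 : ↥S) : Ω) = id ((1 * ⟨x, hP x.2⟩ : ↥S) : Ω)
        simp
      obtain ⟨U, a, ha, hU⟩ := isTw_of_fixed c hc _ _ hfix
      have hx : ∀ x : P, φ x ∈ U ∧ (x : Ω) = a (φ x) := by
        intro x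
        have h1 : κ x ∈ tw S U a := hU ▸ ⟨x, rfl⟩
        exact (mem_tw ha _).1 h1
      have hR : φ.range ≤ U := by
        rintro _ ⟨x, rfl⟩
        exact (hx x).1
      have hiso : Iso F φ.range P a := by
        refine ⟨ha.mono hR, fun y => ⟨fun hy => ?_, ?_⟩⟩
        · exact ⟨φ ⟨y, hy⟩, ⟨_, rfl⟩, ((hx ⟨y, hy⟩).2).symm⟩
        · rintro ⟨_, ⟨x, rfl⟩, rfl⟩
          rw [← (hx x).2]; exact x.2
      obtain ⟨g', hg', h1, -⟩ := hiso.symm
      refine hg'.mor.mem_hom (fun x => ?_)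
      have h2 := h1 (φ x) ⟨x, rfl⟩
      rw [← (hx x).2] at h2
      exact h2.symm

end Cfsg.Agent.Lib.Helper86.Park
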