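import Cfsg.Agent.Lib.Helper90.Biset.Burnside

set_option autoImplicit false
universe u

namespace Cfsg.Agent.Lib.Helper86.Park

open Cfsg.Agent.Lib.Helper90.Marks

variable {Γ : Type u} [Group Γ]

/-- The `Γ`-set with coefficient function `c`: `c D` copies of `Γ ⧸ D` for every subgroup `D`. -/
structure XSet (c : Subgroup Γ → ℕ) : Type u where
  /-- the type of the orbit -/
  D : Subgroup Γ
  /-- the index of the copy -/
  i : Fin (c D)
  /-- the coset -/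
  q : Γ ⧸ D

instance (c : Subgroup Γ → ℕ) : MulAction Γ (XSet c) where
  smul g x := ⟨x.D, x.i, g • x.q⟩
  one_smul x := by
    obtain ⟨D, i, q⟩ := x
    show (⟨D, i, (1 : Γ) • q⟩ : XSet c) = ⟨D, i, q⟩
    rw [one_smul]
  mul_smul g h x := by
    obtain ⟨D, i, q⟩ := x
    show (⟨D, i, (g * h) • q⟩ : XSet c) = ⟨D, i, g • h • q⟩
    rw [mul_smul]

theorem smul_mk (c : Subgroup Γ → ℕ) (g : Γ) (D : Subgroup Γ) (i : Fin (c D)) (q : Γ ⧸ D) :
    g • (⟨D, i, q⟩ : XSet c) = ⟨D, i, g • q⟩ := rfl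

/-- `XSet c` as a sigma type -/
def XSet.equivSigma (c : Subgroup Γ → ℕ) : XSet c ≃ Σ D : Subgroup Γ, Fin (c D) × (Γ ⧸ D) where
  toFun x := ⟨x.D, x.i, x.q⟩
  invFun y := ⟨y.1, y.2.1, y.2.2⟩
  left_inv _ := rfl
  right_inv _ := rfl

instance [Finite Γ] (c : Subgroup Γ → ℕ) : Finite (XSet c) :=
  Finite.of_equiv _ (XSet.equivSigma c).symm

theorem smul_eq_iff (c : Subgroup Γ → ℕ) (g : Γ) (x : XSet c) :
    g • x = x ↔ g • x.q = x.q := by
  obtain ⟨D, i, q⟩ := x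
  rw [smul_mk]
  constructor
  · intro h
    have h1 := XSet.mk.inj h
    exact eq_of_heq h1.2.2
  · intro h
    show (⟨D, i, g • q⟩ : XSet c) = ⟨D, i, q⟩
    have h' : g • q = q := h
    rw [h']

/-- the marks of `XSet c` -/
theorem card_fixed [Finite Γ] [Fintype (Subgroup Γ)] (c : Subgroup Γ → ℕ) (K : Subgroup Γ) :
    Nat.card {x : XSet c // ∀ k ∈ K, k • x = x} = M c K := by
  have e : {x : XSet c // ∀ k ∈ K, k • x = x} ≃
      Σ D : Subgroup Γ, Fin (c D) × {q : Γ ⧸ D // ∀ k ∈ K, k • q = q} :=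
    { toFun := fun x => ⟨x.1.D, x.1.i, ⟨x.1.q, fun k hk =>
        (smul_eq_iff c k x.1).1 (x.2 k hk)⟩⟩
      invFun := fun y => ⟨⟨y.1, y.2.1, y.2.2.1⟩, fun k hk =>
        (smul_eq_iff c k _).2 (y.2.2.2 k hk)⟩
      left_inv := fun x => rfl
      right_inv := fun y => rfl }
  rw [Nat.card_congr e, Nat.card_sigma, M]
  apply Finset.sum_congr rfl
  intro D _
  rw [Nat.card_prod, Nat.card_fin, mk_eq]

/-- a point fixed by `K` lies in an orbit `Γ ⧸ D` with `c D ≠ 0` and `K` conjugate into `D` -/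
theorem exists_of_fixed (c : Subgroup Γ → ℕ) (K : Subgroup Γ) (x : XSet c)
    (hx : ∀ k ∈ K, k • x = x) : ∃ D : Subgroup Γ, c D ≠ 0 ∧ ∃ γ : Γ, ∀ k ∈ K, γ⁻¹ * k * γ ∈ D := by
  obtain ⟨D, i, q⟩ := x
  refine ⟨D, ?_, ?_⟩
  · intro h
    rw [h] at i
    exact i.elim0
  · obtain ⟨γ, rfl⟩ := QuotientGroup.mk_surjective q
    refine ⟨γ, fun k hk => ?_⟩
    have h1 := (smul_eq_iff c k _).1 (hx k hk)
    have h2 : ((k * γ : Γ) : Γ ⧸ D) = (γ : Γ ⧸ D) := h1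
    have h3 := QuotientGroup.eq.1 h2.symm
    rwa [← mul_assoc] at h3

end Cfsg.Agent.Lib.Helper86.Park
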