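import Cfsg.Agent.Lib.Helper57.Quad7

set_option autoImplicit false

/-! Natural `SL₂(p)`-pairs modulo a subgroup, and sections isomorphic to `Qd(p)`. -/

namespace Cfsg.Agent.Lib.Helper86.QdG

open Cfsg Cfsg.Agent.Lib.Helper57 Matrix

universe u v

variable {p : ℕ}

/-- A natural pair modulo `T₁`. -/
structure Cfg (p : ℕ) {G : Type u} [Group G] (T₁ : Subgroup G) (e : (Fin 2 → ZMod p) → G)
    (s t : G) : Prop where
  eN : ∀ α, e α ∈ Subgroup.normalizer (T₁ : Set G)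
  sN : s ∈ Subgroup.normalizer (T₁ : Set G)
  tN : t ∈ Subgroup.normalizer (T₁ : Set G)
  add : ∀ α β, (e (α + β))⁻¹ * (e α * e β) ∈ T₁
  inj : ∀ α, e α ∈ T₁ → α = 0
  hs : ∀ α, (e ((Qd.uu 1 : Qd.SL2 p).1 *ᵥ α))⁻¹ * (s * e α * s⁻¹) ∈ T₁
  ht : ∀ α, (e ((Qd.ll 1 : Qd.SL2 p).1 *ᵥ α))⁻¹ * (t * e α * t⁻¹) ∈ T₁

theorem Cfg.involves {G : Type u} [Group G] [Finite G] [Fact p.Prime] (hp : p ≠ 2)
    {T₁ : Subgroup G} {e : (Fin 2 → ZMod p) → G} {s t : G} (h : Cfg p T₁ e s t) :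
    Cfsg.Involves ↥(Cfsg.qd p) G := by
  set X := Subgroup.normalizer (T₁ : Set G) with hX
  have hn : (T₁.subgroupOf X).Normal := Subgroup.normal_in_normalizer
  let eb : (Fin 2 → ZMod p) → X ⧸ T₁.subgroupOf X := fun α => QuotientGroup.mk ⟨e α, h.eN α⟩
  have hadd : ∀ α β, eb (α + β) = eb α * eb β := by
    intro α β
    show (QuotientGroup.mk _ : X ⧸ T₁.subgroupOf X) = QuotientGroup.mk (_ * _)
    rw [QuotientGroup.eq]
    exact h.add α β
  have h0 : eb 0 = 1 := by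
    have := hadd 0 0
    rw [add_zero] at this
    exact (mul_eq_left.mp this.symm)
  have hinj : Function.Injective eb := by
    intro α β hαβ
    have h1 : eb (α - β) = 1 := by
      have h2 := hadd (α - β) β
      rw [sub_add_cancel, hαβ] at h2
      exact (mul_eq_right.mp h2.symm)
    have h3 : e (α - β) ∈ T₁ := (QuotientGroup.eq_one_iff (N := T₁.subgroupOf X) _).1 h1
    exact sub_eq_zero.1 (h.inj _ h3)
  refine Qd.involves_trans (QuotientGroup.mk' (T₁.subgroupOf X)) (QuotientGroup.mk'_surjective _)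
    (Qd.involves_qd_of_pair hp eb hadd hinj (QuotientGroup.mk ⟨s, h.sN⟩)
      (QuotientGroup.mk ⟨t, h.tN⟩) (fun α => ?_) (fun α => ?_))
  · symm
    show (QuotientGroup.mk _ : X ⧸ T₁.subgroupOf X) = QuotientGroup.mk (_ * _ * _⁻¹)
    rw [QuotientGroup.eq]
    exact h.hs α
  · symm
    show (QuotientGroup.mk _ : X ⧸ T₁.subgroupOf X) = QuotientGroup.mk (_ * _ * _⁻¹)
    rw [QuotientGroup.eq]
    exact h.ht α

/-- Transport along a homomorphism injective on a subgroup containing the relevant `p`-part. -/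
theorem Cfg.map {X : Type u} [Group X] {L : Type v} [Group L] (π : X →* L)
    {T₁ : Subgroup X} {e : (Fin 2 → ZMod p) → X} {s t : X} (h : Cfg p T₁ e s t)
    (D : Subgroup X) (hT : T₁ ≤ D) (he : ∀ α, e α ∈ D) (hπ : ∀ x ∈ D, π x = 1 → x = 1) :
    Cfg p (T₁.map π) (fun α => π (e α)) (π s) (π t) where
  eN := fun α => Subgroup.le_normalizer_map π ⟨_, h.eN α, rfl⟩
  sN := Subgroup.le_normalizer_map π ⟨_, h.sN, rfl⟩
  tN := Subgroup.le_normalizer_map π ⟨_, h.tN, rfl⟩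
  add := fun α β => ⟨_, h.add α β, by simp⟩
  inj := by
    rintro α ⟨y, hy, e1⟩
    have h1 : y⁻¹ * e α = 1 := hπ _ (D.mul_mem (D.inv_mem (hT hy)) (he α)) (by
      rw [map_mul, map_inv, e1, inv_mul_cancel])
    have h2 : e α = y := (inv_mul_eq_one.1 h1).symm
    exact h.inj α (h2 ▸ hy)
  hs := fun α => ⟨_, h.hs α, by simp⟩
  ht := fun α => ⟨_, h.ht α, by simp⟩

/-- Restriction to a subgroup containing the data. -/
theorem Cfg.restrict {G : Type u} [Group G] {T₁ : Subgroup G} {e : (Fin 2 → ZMod p) → G} {s t : G}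
    (h : Cfg p T₁ e s t) (X : Subgroup G) (he : ∀ α, e α ∈ X) (hs : s ∈ X) (ht : t ∈ X) :
    Cfg p (T₁.subgroupOf X) (fun α => (⟨e α, he α⟩ : X)) ⟨s, hs⟩ ⟨t, ht⟩ := by
  have key : ∀ x : X, (x : G) ∈ Subgroup.normalizer (T₁ : Set G) →
      x ∈ Subgroup.normalizer ((T₁.subgroupOf X : Subgroup X) : Set X) := by
    intro x hx
    rw [Subgroup.mem_normalizer_iff]
    intro y
    exact Subgroup.mem_normalizer_iff.1 hx y
  exact ⟨fun α => key _ (h.eN α), key _ h.sN, key _ h.tN, h.add, h.inj, h.hs, h.ht⟩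

end Cfsg.Agent.Lib.Helper86.QdG
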