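import Cfsg.Agent.Lib.Helper86.QdCfg
import Cfsg.Agent.Lib.Helper87.NormalSubgroupSystem

set_option autoImplicit false

/-! From a section isomorphic to `Qd(p)` to a natural pair on a section of a `p`-subgroup. -/

namespace Cfsg.Agent.Lib.Helper86.QdG

open Cfsg Cfsg.Agent.Lib.Helper57 Cfsg.Agent.Lib.Helper87 Matrix

universe u v

variable {p : ℕ}

/-- A natural pair on the section `T₀ / T₁` of the `p`-subgroup `T₀`. -/
structure Cfg0 (p : ℕ) {G : Type u} [Group G] (T₀ T₁ : Subgroup G) (e : (Fin 2 → ZMod p) → G)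
    (s t : G) : Prop where
  cfg : Cfg p T₁ e s t
  pT : IsPGroup p T₀
  le : T₁ ≤ T₀
  eT : ∀ α, e α ∈ T₀
  sT : s ∈ Subgroup.normalizer (T₀ : Set G)
  tT : t ∈ Subgroup.normalizer (T₀ : Set G)
  nT : T₀ ≤ Subgroup.normalizer (T₁ : Set G)
  comm : ∀ a ∈ T₀, ∀ b ∈ T₀, a * b * a⁻¹ * b⁻¹ ∈ T₁

theorem Cfg0.map {K : Type u} [Group K] {G : Type v} [Group G] (i : K →* G)
    (hi : Function.Injective i) {T₀ T₁ : Subgroup K} {e : (Fin 2 → ZMod p) → K} {s t : K}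
    (h : Cfg0 p T₀ T₁ e s t) :
    Cfg0 p (T₀.map i) (T₁.map i) (fun α => i (e α)) (i s) (i t) where
  cfg := h.cfg.map i ⊤ le_top (fun _ => trivial) (fun x _ hx => hi (by rw [hx, map_one]))
  pT := h.pT.map i
  le := Subgroup.map_mono h.le
  eT := fun α => ⟨_, h.eT α, rfl⟩
  sT := Subgroup.le_normalizer_map i ⟨_, h.sT, rfl⟩
  tT := Subgroup.le_normalizer_map i ⟨_, h.tT, rfl⟩
  nT := (Subgroup.map_mono h.nT).trans (Subgroup.le_normalizer_map i)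
  comm := by
    rintro _ ⟨a, ha, rfl⟩ _ ⟨b, hb, rfl⟩
    exact ⟨_, h.comm a ha b hb, by simp⟩

theorem tr_comm (α β : Fin 2 → ZMod p) : Qd.tr α * Qd.tr β = Qd.tr β * Qd.tr α := by
  rw [← Qd.tr_add, ← Qd.tr_add, add_comm]

theorem blk_conj_tr (m : Qd.SL2 p) (α : Fin 2 → ZMod p) :
    Qd.blk m * Qd.tr α * (Qd.blk m)⁻¹ = Qd.tr (m.1 *ᵥ α) := by
  rw [Qd.blk_tr, mul_inv_cancel_right]

theorem tr_conj_tr (γ α : Fin 2 → ZMod p) : Qd.tr γ * Qd.tr α * (Qd.tr γ)⁻¹ = Qd.tr α := by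
  rw [tr_comm, mul_inv_cancel_right]

/-- The translation subgroup of `Qd(p)`. -/
def trSub (p : ℕ) : Subgroup ↥(Cfsg.qd p) where
  carrier := {x | ∃ α, Qd.tr α = x}
  one_mem' := ⟨0, Qd.tr_zero⟩
  mul_mem' := by
    rintro _ _ ⟨α, rfl⟩ ⟨β, rfl⟩
    exact ⟨α + β, Qd.tr_add α β⟩
  inv_mem' := by
    rintro _ ⟨α, rfl⟩
    refine ⟨-α, ?_⟩
    rw [eq_inv_iff_mul_eq_one, ← Qd.tr_add, neg_add_cancel, Qd.tr_zero]

theorem trSub_normal : (trSub p).Normal := by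
  constructor
  rintro _ ⟨β, rfl⟩ g
  obtain ⟨α, m, rfl⟩ := Qd.exists_tr_blk g
  refine ⟨m.1 *ᵥ β, ?_⟩
  rw [_root_.mul_inv_rev, ← tr_conj_tr α (m.1 *ᵥ β), ← blk_conj_tr]
  group

theorem tr_pow (α : Fin 2 → ZMod p) (n : ℕ) : Qd.tr α ^ n = Qd.tr (n • α) := by
  induction n with
  | zero => rw [pow_zero, zero_smul, Qd.tr_zero]
  | succ n ih => rw [pow_succ, ih, succ_nsmul, Qd.tr_add]

theorem trSub_isPGroup : IsPGroup p (trSub p) := by
  rintro ⟨_, α, rfl⟩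
  refine ⟨1, Subtype.ext ?_⟩
  rw [Subgroup.coe_pow, Subgroup.coe_one, pow_one]
  show Qd.tr α ^ p = 1
  rw [tr_pow]
  have : p • α = 0 := by
    ext i
    simp
  rw [this, Qd.tr_zero]

theorem mem_normalizer_inf {G : Type*} [Group G] {A B : Subgroup G} {x : G}
    (hA : x ∈ Subgroup.normalizer (A : Set G)) (hB : x ∈ Subgroup.normalizer (B : Set G)) :
    x ∈ Subgroup.normalizer ((A ⊓ B : Subgroup G) : Set G) := by
  rw [Subgroup.mem_normalizer_iff] at hA hB ⊢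
  intro y
  rw [Subgroup.mem_inf, Subgroup.mem_inf, hA y, hB y]

theorem exists_cfg0_of_surjective {K : Type u} [Group K] [Finite K] [Fact p.Prime]
    (f : K →* ↥(Cfsg.qd p)) (hf : Function.Surjective f) :
    ∃ (T₀ T₁ : Subgroup K) (e : (Fin 2 → ZMod p) → K) (s t : K), Cfg0 p T₀ T₁ e s t := by
  classical
  have hVn := trSub_normal (p := p)
  obtain ⟨R⟩ : Nonempty (Sylow p K) := inferInstance
  have hVR : trSub p ≤ (R : Subgroup K).map f := by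
    have := trSub_isPGroup.le_sylow_of_normal (R.mapSurjective hf)
    rwa [Sylow.coe_mapSurjective] at this
  set V : Subgroup K := (trSub p).comap f with hV
  have hVnK : V.Normal := hVn.comap f
  set T₀ : Subgroup K := (R : Subgroup K) ⊓ V with hT₀
  have hsyl : IsSylIn p T₀ V := isSylIn_inf_normal R V
  have hkn : ∀ x : K, x ∈ Subgroup.normalizer (f.ker : Set K) := fun x => by
    rw [Subgroup.normalizer_eq_top]
    trivial
  have hex : ∀ α : Fin 2 → ZMod p, ∃ x ∈ T₀, f x = Qd.tr α := by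
    intro α
    obtain ⟨x, hx, e⟩ := hVR ⟨α, rfl⟩
    exact ⟨x, ⟨hx, show f x ∈ trSub p from ⟨α, e.symm⟩⟩, e⟩
  choose e heT hef using hex
  have hfT : ∀ x ∈ T₀, ∃ γ, f x = Qd.tr γ := by
    intro x hx
    obtain ⟨γ, hγ⟩ := hx.2
    exact ⟨γ, hγ.symm⟩
  have hlift : ∀ m : Qd.SL2 p, ∃ s : K, s ∈ Subgroup.normalizer (T₀ : Set K) ∧
      ∀ α, f (s * e α * s⁻¹) = Qd.tr (m.1 *ᵥ α) := by
    intro m
    obtain ⟨s₀, hs₀⟩ := hf (Qd.blk m)
    obtain ⟨h, hh, hhs⟩ := frattini_rel hsyl (g := s₀) (fun x hx => hVnK.conj_mem x hx s₀)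
    obtain ⟨γ, hγ⟩ := hh
    refine ⟨h * s₀, hhs, fun α => ?_⟩
    rw [map_mul, map_mul, map_inv, map_mul, hs₀, ← hγ, hef, _root_.mul_inv_rev,
      ← tr_conj_tr γ (m.1 *ᵥ α), ← blk_conj_tr]
    group
  obtain ⟨s, hsN, hs⟩ := hlift (Qd.uu 1)
  obtain ⟨t, htN, ht⟩ := hlift (Qd.ll 1)
  have hconjT : ∀ x ∈ Subgroup.normalizer (T₀ : Set K), ∀ y ∈ T₀, x * y * x⁻¹ ∈ T₀ :=
    fun x hx y hy => (Subgroup.mem_normalizer_iff.1 hx y).1 hy
  have hnT : T₀ ≤ Subgroup.normalizer ((T₀ ⊓ f.ker : Subgroup K) : Set K) := fun a ha =>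
    mem_normalizer_inf (Subgroup.le_normalizer ha) (hkn a)
  refine ⟨T₀, T₀ ⊓ f.ker, e, s, t, ⟨fun α => hnT (heT α), mem_normalizer_inf hsN (hkn s),
    mem_normalizer_inf htN (hkn t), fun α β => ⟨?_, ?_⟩, fun α hα => ?_, fun α => ⟨?_, ?_⟩,
    fun α => ⟨?_, ?_⟩⟩, R.isPGroup'.to_le inf_le_left, inf_le_left, heT, hsN, htN, hnT,
    fun a ha b hb => ⟨?_, ?_⟩⟩
  · exact T₀.mul_mem (T₀.inv_mem (heT _)) (T₀.mul_mem (heT _) (heT _))
  · show _ ∈ f.ker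
    rw [MonoidHom.mem_ker, map_mul, map_inv, map_mul, hef, hef, hef, Qd.tr_add, inv_mul_cancel]
  · have h1 : f (e α) = 1 := hα.2
    rw [hef, ← Qd.tr_zero] at h1
    exact Quad.tr_injective h1
  · exact T₀.mul_mem (T₀.inv_mem (heT _)) (hconjT s hsN _ (heT _))
  · show _ ∈ f.ker
    rw [MonoidHom.mem_ker, map_mul, map_inv, hs, hef, inv_mul_cancel]
  · exact T₀.mul_mem (T₀.inv_mem (heT _)) (hconjT t htN _ (heT _))
  · show _ ∈ f.ker
    rw [MonoidHom.mem_ker, map_mul, map_inv, ht, hef, inv_mul_cancel]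
  · exact T₀.mul_mem (T₀.mul_mem (T₀.mul_mem ha hb) (T₀.inv_mem ha)) (T₀.inv_mem hb)
  · obtain ⟨γ, hγ⟩ := hfT a ha
    obtain ⟨δ, hδ⟩ := hfT b hb
    show _ ∈ f.ker
    rw [MonoidHom.mem_ker, map_mul, map_mul, map_mul, map_inv, map_inv, hγ, hδ, tr_conj_tr,
      mul_inv_cancel]

theorem exists_cfg0_of_involves {G : Type u} [Group G] [Finite G] [Fact p.Prime]
    (h : Cfsg.Involves ↥(Cfsg.qd p) G) :
    ∃ (T₀ T₁ : Subgroup G) (e : (Fin 2 → ZMod p) → G) (s t : G), Cfg0 p T₀ T₁ e s t := by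
  obtain ⟨K, f, hf⟩ := Qd.exists_span_of_involves h
  obtain ⟨T₀, T₁, e, s, t, hc⟩ := exists_cfg0_of_surjective f hf
  exact ⟨_, _, _, _, _, hc.map K.subtype K.subtype_injective⟩

end Cfsg.Agent.Lib.Helper86.QdG
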