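import Cfsg.Agent.Lib.Helper86.ModelReal
import Cfsg.Agent.Lib.Helper86.SecFree2
import Cfsg.Agent.Lib.Helper87.FusionGroup
import Cfsg.Agent.S5076
import Cfsg.Agent.S5100

set_option autoImplicit false

/-! The fusion system of an `H`-free finite group is `H`-section-free. -/

namespace Cfsg.Agent.Lib.Helper86.QdG

open Cfsg Cfsg.FusionSystem Cfsg.Agent.Lib.Helper87 Cfsg.Agent.Lib.Helper86.Model
  Cfsg.Agent.Lib.Helper86.SecFree

universe u v w

variable {G : Type u} [Group G]

theorem normalizerIn_le_normalizer (P Q : Subgroup G) :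
    normalizerIn P Q ≤ Subgroup.normalizer (Q : Set G) := inf_le_right

/-- The normalizer system of `Q` in the fusion system of `G` on `P` is realized by `N_G(Q)`. -/
theorem normalizerSystem_realized {P Q : Subgroup G} [Finite P] (hQP : Q ≤ P)
    {N : FusionSystem (normalizerIn P Q)}
    (hN : (groupFusionSystem P).IsNormalizerSystem Q N) :
    N.IsRealizedBy (Subgroup.inclusion (normalizerIn_le_normalizer P Q)) := by
  have : Finite Q := finite_of_le hQP
  refine ⟨Subgroup.inclusion_injective _, fun R hR φ hφ => ?_⟩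
  rw [hom_iff_mor, mor_normalizerSystem_iff hN]
  constructor
  · rintro ⟨-, -, f', hf', e, hfQ⟩
    obtain ⟨-, g, hg⟩ := (mor_group_iff P _ f').1 hf'
    have hgN : g ∈ Subgroup.normalizer (Q : Set G) := by
      refine mem_normalizer_of_forall_conj_mem (fun y hy => ?_)
      rw [← (hg y (Subgroup.mem_sup_right hy)).1]
      exact (hfQ _).2 ⟨y, hy, rfl⟩
    refine ⟨⟨g, hgN⟩, fun x => Subtype.ext ?_⟩
    show φ x = g * (x : G) * g⁻¹
    rw [← (hg x (Subgroup.mem_sup_left x.2)).1, e x x.2, ext_coe]
  · rintro ⟨g, hg⟩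
    have hg' : ∀ x : R, φ x = (g : G) * (x : G) * (g : G)⁻¹ := fun x =>
      congrArg Subtype.val (hg x)
    have hcjQ : cj (g : G) Q = Q := cj_eq_self_of_mem_normalizer g.2
    refine ⟨hR, fun x hx => ?_, fun x => (g : G) * x * (g : G)⁻¹, ?_, fun x hx => ?_, fun y => ?_⟩
    · rw [ext_apply φ hx]
      exact hφ _
    · refine mor_group_conj (g : G) (sup_le (hR.trans inf_le_left) hQP) ?_
      rw [cj_sup, hcjQ]
      refine sup_le (cj_le_iff.2 (fun x hx => ?_)) hQP
      rw [← hg' ⟨x, hx⟩]
      exact (hφ _).1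
    · rw [ext_apply φ hx, hg' ⟨x, hx⟩]
    · conv_lhs => rw [← hcjQ]
      exact Iff.rfl

/-- Every model of the normalizer system of a fully normalized centric subgroup `Q` is a quotient of `N_G(Q)`. -/
theorem exists_surjective_normalizer [Finite G] {p : ℕ} [Fact p.Prime] (P : Sylow p G)
    {Q : Subgroup G} (hQn : (groupFusionSystem (P : Subgroup G)).IsFullyNormalized Q)
    (hQc : (groupFusionSystem (P : Subgroup G)).IsCentric Q)
    {N : FusionSystem (normalizerIn (P : Subgroup G) Q)}
    (hN : (groupFusionSystem (P : Subgroup G)).IsNormalizerSystem Q N)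
    {L : Type w} [Group L] {ιL : ↥(normalizerIn (P : Subgroup G) Q) →* L} (hL : N.IsModel p L ιL) :
    ∃ π : ↥(Subgroup.normalizer (Q : Set G)) →* L, Function.Surjective π := by
  have hS : IsPGroup p (P : Subgroup G) := P.isPGroup'
  have hF := Cfsg.Agent.S5076.result p P
  have hset : Setup p N Q := setup_normalizer hS hF hQn hQc hN
  have hr := normalizerSystem_realized hQn.1 hN
  refine hset.exists_surjective_of_realized hr ?_ ?_ hL
  · constructor
    rintro _ ⟨x, rfl⟩ g
    refine ⟨⟨(g : G) * x * (g : G)⁻¹, (Subgroup.mem_normalizer_iff.1 g.2 x).1 x.2⟩, ?_⟩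
    exact Subtype.ext rfl
  · obtain ⟨R, hR⟩ := (Cfsg.Agent.S5100.result p P Q hQn.1).1 hQn
    rw [Subgroup.inclusion_range, ← hR]
    exact R.not_dvd_index

theorem sectionFree_group [Finite G] {p : ℕ} [Fact p.Prime] (P : Sylow p G) {H : Type v} [Group H]
    (hH : ¬ Cfsg.Involves H G) : (groupFusionSystem (P : Subgroup G)).IsSectionFree p H := by
  intro Q hQn hQc N hN L _ ιL hL hinv
  obtain ⟨π, hπ⟩ := exists_surjective_normalizer P hQn hQc hN hL
  exact hH (involves_of_injective _ (Subgroup.subtype_injective _) (involves_of_surjective π hπ hinv))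

end Cfsg.Agent.Lib.Helper86.QdG
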