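import Cfsg.Agent.Lib.Helper86.QdCfg2
import Cfsg.Agent.Lib.Helper86.QdGroup

set_option autoImplicit false

/-! If `Qd(p)` is involved in `G` then the fusion system of `G` is not `Qd(p)`-free. -/

namespace Cfsg.Agent.Lib.Helper86.Model

open Cfsg Cfsg.FusionSystem Cfsg.Agent.Lib.Helper87

universe u v w

variable {Ω : Type u} [Group Ω] {S : Subgroup Ω} {G : Type v} [Group G]
variable {p : ℕ} {F : FusionSystem S} {Q : Subgroup Ω} {ι : S →* G}

/-- A model is a quotient of every finite realizing group in which `Q` is normal, compatibly with `S`. -/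
theorem Setup.exists_surjective_of_realized' [Finite S] [Fact p.Prime] [Finite G]
    (h : Setup p F Q)
    (hr : F.IsRealizedBy ι) (hn : (jQ ι h.hQS).range.Normal) (hidx : ¬ p ∣ ι.range.index)
    {M : Type w} [Group M] {ιM : S →* M} (hM : F.IsModel p M ιM) :
    ∃ π : G →* M, Function.Surjective π ∧ ∀ s, π (ι s) = ιM s := by
  have : Finite Q := finite_of_le h.hQS
  obtain ⟨K, hKn, ρ', habs⟩ := (h.preModel_of_realized hr hn).exists_quot p h.hS hidx
  obtain ⟨f, hf⟩ := habs.unique (h.abs_of_isModel hM) p h.hS h.not_dvd_index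
  exact ⟨f.toMonoidHom.comp (QuotientGroup.mk' K),
    f.surjective.comp (QuotientGroup.mk'_surjective K), hf⟩

end Cfsg.Agent.Lib.Helper86.Model

namespace Cfsg.Agent.Lib.Helper86.QdG

open Cfsg Cfsg.FusionSystem Cfsg.Agent.Lib.Helper57 Cfsg.Agent.Lib.Helper87 Matrix
  Cfsg.Agent.Lib.Helper86.Model Cfsg.Agent.Lib.Helper86.SecFree

universe u v w

variable {p : ℕ} {G : Type u} [Group G]

/-- Every `p`-subgroup of `C_G(D)` lies in `D`. -/
def PCen (p : ℕ) (D : Subgroup G) : Prop :=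
  ∀ L : Subgroup G, IsPGroup p L → L ≤ Subgroup.centralizer (D : Set G) → L ≤ D

theorem PCen.conj {D : Subgroup G} (h : PCen p D) (g : G) : PCen p (cj g D) := by
  intro L hL hLD
  have h1 : cj g⁻¹ L ≤ D := by
    refine h _ (isPGroup_cj hL g⁻¹) ?_
    have := cj_mono (g := g⁻¹) hLD
    rwa [cj_centralizer, cj_inv_cj] at this
  have := cj_mono (g := g) h1
  rwa [cj_cj_inv] at this

theorem exists_centric [Finite G] [Fact p.Prime] {T₀ T₁ : Subgroup G}
    {e : (Fin 2 → ZMod p) → G} {s t : G} (h : Cfg0 p T₀ T₁ e s t) :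
    ∃ (D : Subgroup G) (s' t' : G), Cfg p T₁ e s' t' ∧ IsPGroup p D ∧ T₀ ≤ D ∧
      s' ∈ Subgroup.normalizer (D : Set G) ∧ t' ∈ Subgroup.normalizer (D : Set G) ∧ PCen p D := by
  set C := Subgroup.centralizer (T₀ : Set G) with hC
  obtain ⟨D, hD, hTD⟩ := exists_isSylIn_ge (le_sup_left : T₀ ≤ T₀ ⊔ C) h.pT
  have hCT₁ : C ≤ Subgroup.normalizer (T₁ : Set G) :=
    (Subgroup.centralizer_le h.le).trans (Subgroup.centralizer_le_normalizer _)
  have key : ∀ (x : G) (A : (Fin 2 → ZMod p) → (Fin 2 → ZMod p)),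
      x ∈ Subgroup.normalizer (T₀ : Set G) → x ∈ Subgroup.normalizer (T₁ : Set G) →
      (∀ α, (e (A α))⁻¹ * (x * e α * x⁻¹) ∈ T₁) →
      ∃ x', x' ∈ Subgroup.normalizer (D : Set G) ∧ x' ∈ Subgroup.normalizer (T₁ : Set G) ∧
        ∀ α, (e (A α))⁻¹ * (x' * e α * x'⁻¹) ∈ T₁ := by
    intro x A hx0 hx1 hxA
    have hcj : cj x (T₀ ⊔ C) = T₀ ⊔ C := by
      rw [cj_sup, hC, ← cj_centralizer, cj_eq_self_of_mem_normalizer hx0]
    obtain ⟨k, hk, hkx⟩ := frattini_rel hD (g := x) (fun y hy => by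
      have := conj_mem_cj (g := x) hy
      rwa [hcj] at this)
    obtain ⟨a, ha, c, hc, rfl⟩ := mem_sup_of_normalizes (A := T₀) (B := C) (fun a ha b hb => by
      have h1 : a ∈ Subgroup.normalizer (T₀ : Set G) := Subgroup.le_normalizer ha
      have h2 := conj_mem_cj (g := a) hb
      rwa [hC, ← cj_centralizer, cj_eq_self_of_mem_normalizer h1] at h2) hk
    refine ⟨a * c * x, hkx, Subgroup.mul_mem _ (Subgroup.mul_mem _ (h.nT ha) (hCT₁ hc)) hx1,
      fun α => ?_⟩
    set y := x * e α * x⁻¹ with hy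
    have hyT : y ∈ T₀ := (Subgroup.mem_normalizer_iff.1 hx0 _).1 (h.eT α)
    have hcy : c * y * c⁻¹ = y := by
      have := (Subgroup.mem_centralizer_iff.1 hc) y hyT
      rw [← this, mul_inv_cancel_right]
    have e1 : a * c * x * e α * (a * c * x)⁻¹ = (a * y * a⁻¹ * y⁻¹) * y := by
      calc a * c * x * e α * (a * c * x)⁻¹ = a * (c * (x * e α * x⁻¹) * c⁻¹) * a⁻¹ := by group
        _ = a * y * a⁻¹ := by rw [← hy, hcy]
        _ = (a * y * a⁻¹ * y⁻¹) * y := by group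
    rw [e1]
    have h3 : (e (A α))⁻¹ * (a * y * a⁻¹ * y⁻¹) * (e (A α))⁻¹⁻¹ ∈ T₁ :=
      (Subgroup.mem_normalizer_iff.1 (Subgroup.inv_mem _ (h.cfg.eN (A α))) _).1 (h.comm a ha y hyT)
    have h4 := T₁.mul_mem h3 (hxA α)
    have e2 : (e (A α))⁻¹ * (a * y * a⁻¹ * y⁻¹) * (e (A α))⁻¹⁻¹ * ((e (A α))⁻¹ * y) =
        (e (A α))⁻¹ * (a * y * a⁻¹ * y⁻¹ * y) := by group
    rwa [e2] at h4
  obtain ⟨s', hs'D, hs'1, hs'⟩ := key s _ h.sT h.cfg.sN h.cfg.hs
  obtain ⟨t', ht'D, ht'1, ht'⟩ := key t _ h.tT h.cfg.tN h.cfg.ht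
  refine ⟨D, s', t', ⟨h.cfg.eN, hs'1, ht'1, h.cfg.add, h.cfg.inj, hs', ht'⟩, hD.2.1, hTD, hs'D,
    ht'D, fun L hL hLD => ?_⟩
  have hLC : L ≤ C := hLD.trans (Subgroup.centralizer_le hTD)
  have hDL : D ≤ Subgroup.normalizer (L : Set G) :=
    (Subgroup.le_centralizer_iff.1 hLD).trans (Subgroup.centralizer_le_normalizer _)
  have hp := IsPGroup.to_sup_of_normal_right' hD.2.1 hL hDL
  have := hD.2.2 (D ⊔ L) (sup_le hD.1 (hLC.trans le_sup_right)) hp le_sup_left
  rw [← this]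
  exact le_sup_right

theorem centric_of_pCen {P D : Subgroup G} (hP : IsPGroup p P) (hDP : D ≤ P) (h : PCen p D) :
    (groupFusionSystem P).IsCentric D := by
  refine ⟨hDP, fun D' hD' => ?_⟩
  obtain ⟨-, -, g, rfl⟩ := (isConj_group_iff P D D').1 hD'
  exact h.conj g _ (hP.to_le inf_le_left) inf_le_right

theorem not_sectionFree_of_involves [Finite G] [Fact p.Prime] (hp : p ≠ 2) (P : Sylow p G)
    (h : Cfsg.Involves ↥(Cfsg.qd p) G) :
    ¬ (groupFusionSystem (P : Subgroup G)).IsSectionFree p ↥(Cfsg.qd p) := by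
  intro hfree
  obtain ⟨T₀, T₁, e, s, t, h0⟩ := exists_cfg0_of_involves h
  obtain ⟨D, s', t', hc, hDp, hTD, hsD, htD, hcen⟩ := exists_centric h0
  have hS : IsPGroup p (P : Subgroup G) := P.isPGroup'
  have hF := Cfsg.Agent.S5076.result p P
  -- move `D` to a fully normalized subgroup of `P`
  obtain ⟨g₁, -, hg₁⟩ := (Sylow_isSylIn P).exists_conj (L := D) le_top hDp
  obtain ⟨D', hconj, hD'n⟩ := Helper87.exists_fullyNormalized_conj
    (groupFusionSystem (P : Subgroup G)) (cj_le_iff.2 hg₁)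
  obtain ⟨-, -, g₂, hD'⟩ := (isConj_group_iff _ _ _).1 hconj
  rw [← cj_mul] at hD'
  set g := g₂ * g₁ with hg
  have hD'c : (groupFusionSystem (P : Subgroup G)).IsCentric D' :=
    centric_of_pCen hS hD'n.1 (hD' ▸ hcen.conj g)
  have hc' := hc.map (MulAut.conj g).toMonoidHom ⊤ le_top (fun _ => trivial)
    (fun x _ hx => (MulAut.conj g).injective (by rw [map_one]; exact hx))
  have hmemN : ∀ x ∈ Subgroup.normalizer (D : Set G),
      (MulAut.conj g).toMonoidHom x ∈ Subgroup.normalizer (D' : Set G) := by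
    intro x hx
    rw [hD', cj_normalizer]
    exact ⟨x, hx, rfl⟩
  have hmemD : ∀ x ∈ D, (MulAut.conj g).toMonoidHom x ∈ D' := by
    intro x hx
    rw [hD']
    exact ⟨x, hx, rfl⟩
  set X := Subgroup.normalizer (D' : Set G) with hX
  have hDX : D' ≤ X := Subgroup.le_normalizer
  have hc'' := hc'.restrict X (fun α => hDX (hmemD _ (hTD (h0.eT α)))) (hmemN _ hsD) (hmemN _ htD)
  obtain ⟨N, hN⟩ := Cfsg.Agent.S5096.result (groupFusionSystem (P : Subgroup G)) D' hD'n.1
  have hset : Setup p N D' := setup_normalizer hS hF hD'n hD'c hN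
  have : Finite (normalizerIn (P : Subgroup G) D') := finite_of_le (normalizerIn_le _ _)
  obtain ⟨L, _, ιL, hL⟩ := hset.exists_model
  have hr := normalizerSystem_realized hD'n.1 hN
  obtain ⟨π, -, hπ⟩ := hset.exists_surjective_of_realized' hr (by
      constructor
      rintro _ ⟨x, rfl⟩ k
      refine ⟨⟨(k : G) * x * (k : G)⁻¹, (Subgroup.mem_normalizer_iff.1 k.2 x).1 x.2⟩, ?_⟩
      exact Subtype.ext rfl) (by
      obtain ⟨R, hR⟩ := (Cfsg.Agent.S5100.result p P D' hD'n.1).1 hD'n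
      rw [Subgroup.inclusion_range, ← hR]
      exact R.not_dvd_index) hL
  have hfin : Finite L := hL.1
  have hcL := hc''.map π (D'.subgroupOf X) (fun x hx => by
      obtain ⟨y, hy, e1⟩ := hx
      show (x : G) ∈ D'
      have e2 : (x : G) = (MulAut.conj g).toMonoidHom y := e1.symm
      rw [e2]
      exact hmemD y (hTD (h0.le hy))) (fun α => hmemD _ (hTD (h0.eT α))) (fun x hx hx1 => by
      have hxN : (x : G) ∈ normalizerIn (P : Subgroup G) D' := le_normalizerIn hD'n.1 hx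
      have h1 := hπ ⟨x, hxN⟩
      have h2 : Subgroup.inclusion (normalizerIn_le_normalizer (P : Subgroup G) D') ⟨x, hxN⟩ = x :=
        Subtype.ext rfl
      rw [h2, hx1] at h1
      have h3 : (⟨(x : G), hxN⟩ : normalizerIn (P : Subgroup G) D') = 1 :=
        hL.2.1.1 (by rw [← h1, map_one])
      have h4 : (x : G) = 1 := congrArg Subtype.val h3
      exact Subtype.ext h4)
  exact hfree D' hD'n hD'c N hN L ιL hL (hcL.involves hp)

end Cfsg.Agent.Lib.Helper86.QdG
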